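import Cfsg.Agent.H89.Fi22Type
import Cfsg.Agent.H97.Uniq.M22

/-!
Type M(22): two elements of order three centralizing exactly 36 and 27 members.
-/

set_option autoImplicit false
set_option maxRecDepth 20000

namespace Cfsg.Agent.H72.M22Three

open Cfsg.Spor Cfsg.Agent.H16 EnumData Cfsg.Agent.H89

/-- The word of the element with 36 fixed points. -/
def word36 : List Nat := [1, 2, 3, 7, 4, 3, 2, 1, 0, 1, 2, 3, 4, 7, 3, 2, 1, 7, 4, 3, 1, 2, 0, 1, 0, 1, 0, 2, 1, 3, 4, 7, 2, 3, 1, 2, 0, 1, 0, 1, 0, 2, 1, 3, 2, 7, 5, 4, 2, 3, 1, 2, 0, 1, 0, 1, 0, 2, 1, 3, 2, 4, 5, 7]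

/-- The word of the element with 27 fixed points. -/
def word27 : List Nat := [7, 4, 2, 3, 1, 2, 0, 1, 0, 1, 0, 2, 1, 3, 2, 4, 7, 5, 4, 3, 1, 2, 0, 1, 0, 1, 0, 2, 1, 3, 4, 5, 8, 1, 2, 3, 7, 4, 3, 2, 1, 0, 1, 2, 3, 4, 7, 3, 2, 1, 8, 7, 4, 2, 3, 1, 2, 0, 1, 0, 1, 0, 2, 1, 3, 2, 4, 7, 5, 4, 3, 1, 2, 0, 1, 0, 1, 0, 2, 1, 3, 4, 5, 8, 1, 2, 3, 7, 4, 3, 2, 1, 0, 1, 2, 3, 4, 7, 3, 2, 1, 8]

/-- The fixed points of `word36`. -/
def pts36 : List Nat := [0, 56, 61, 73, 77, 79, 99, 417, 441, 531, 637, 1132, 1298, 1321, 1331, 1470, 1587, 1633, 1838, 1854, 1959, 2178, 2191, 2244, 2533, 2625, 2779, 2852, 2988, 3014, 3138, 3160, 3360, 3389, 3440, 3447]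

/-- The fixed points of `word27`. -/
def pts27 : List Nat := [0, 16, 28, 38, 42, 48, 52, 70, 84, 86, 95, 103, 112, 144, 194, 231, 298, 379, 421, 477, 536, 758, 760, 935, 945, 1124, 1322]

theorem fix36_check : allFrom (fun i =>
    Nat.beq (Fi22H.data.run word36 i) i == pts36.contains i) Fi22H.data.n 0 = true := by
  decide +kernel

theorem fix27_check : allFrom (fun i =>
    Nat.beq (Fi22H.data.run word27 i) i == pts27.contains i) Fi22H.data.n 0 = true := by
  decide +kernel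

theorem list_facts :
    (pts36.all fun i => Nat.ble (i + 1) Fi22H.data.n) = true ∧ pts36.Nodup ∧ pts36.length = 36 ∧
    (pts27.all fun i => Nat.ble (i + 1) Fi22H.data.n) = true ∧ pts27.Nodup ∧ pts27.length = 27 := by
  decide +kernel

theorem cube36 : Fi22U.el word36 ^ 3 = 1 :=
  Fi22U.el_pow _ (by decide) 3 (by decide +kernel)

theorem cube27 : Fi22U.el word27 ^ 3 = 1 :=
  Fi22U.el_pow _ (by decide) 3 (by decide +kernel)

theorem fix_ncard {w pts : List Nat} {k : ℕ}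
    (hw : (w.all fun g => Nat.ble (g + 1) 9) = true)
    (hc : allFrom (fun i => Nat.beq (Fi22H.data.run w i) i == pts.contains i) Fi22H.data.n 0 = true)
    (hn : (pts.all fun i => Nat.ble (i + 1) Fi22H.data.n) = true) (hd : pts.Nodup)
    (hk : pts.length = k) :
    {y | y ∈ Fi22Type.cls ∧ Commute (Fi22U.el w) y}.ncard = k := by
  obtain ⟨P, hP⟩ : ∃ P : Set (Fin Fi22H.data.n), P = {i : Fin Fi22H.data.n | (i : Nat) ∈ pts} := ⟨_, rfl⟩
  have hset : {y | y ∈ Fi22Type.cls ∧ Commute (Fi22U.el w) y} = Fi22Type.mem '' P := by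
    have key : ∀ i : Fin Fi22H.data.n, Commute (Fi22U.el w) (Fi22Type.mem i) ↔ i ∈ P := by
      intro i
      have h := allFrom_spec hc i (Nat.zero_le _) (by omega)
      rw [Fi22Type.commute_iff, Fin.ext_iff, Fi22Type.run_rho w hw, hP, Set.mem_setOf_eq,
        ← List.contains_iff_mem, ← beq_iff_eq.1 h]
      exact (Iff.of_eq Nat.beq_eq).symm
    ext y
    constructor
    · rintro ⟨hy, hy'⟩
      obtain ⟨i, rfl⟩ := Fi22Type.cls_surj hy
      exact ⟨i, (key i).1 hy', rfl⟩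
    · rintro ⟨i, hi, rfl⟩
      exact ⟨Fi22Type.mem_cls i, (key i).2 hi⟩
  rw [hset, Set.ncard_image_of_injective _ Fi22Type.mem_inj, ← Nat.card_coe_set_eq]
  subst hP
  have e : {i : Fin Fi22H.data.n | (i : Nat) ∈ pts}.ncard = pts.toFinset.card := by
    rw [← Set.ncard_image_of_injective _ Fin.val_injective, ← Set.ncard_coe_finset]
    congr 1
    ext n
    simp only [Set.mem_image, Set.mem_setOf_eq, List.coe_toFinset]
    exact ⟨fun ⟨i, hi, e⟩ => e ▸ hi, fun h =>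
      ⟨⟨n, Nat.le_of_ble_eq_true (List.all_eq_true.1 hn n h)⟩, h, rfl⟩⟩
  rw [Nat.card_coe_set_eq, e, List.toFinset_card_of_nodup hd, hk]

theorem ne_one_of_ncard {w : List Nat} {k : ℕ} (hk : k < 100)
    (h : {y | y ∈ Fi22Type.cls ∧ Commute (Fi22U.el w) y}.ncard = k) : Fi22U.el w ≠ 1 := by
  intro e
  rw [e] at h
  have e' : {y | y ∈ Fi22Type.cls ∧ Commute (1 : Fi22) y} = Fi22Type.mem '' Set.univ := by
    ext y
    constructor
    · rintro ⟨hy, -⟩
      obtain ⟨i, rfl⟩ := Fi22Type.cls_surj hy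
      exact ⟨i, trivial, rfl⟩
    · rintro ⟨i, -, rfl⟩
      exact ⟨Fi22Type.mem_cls i, Commute.one_left _⟩
  rw [e', Set.ncard_image_of_injective _ Fi22Type.mem_inj, Set.ncard_univ, Nat.card_fin] at h
  rw [← h] at hk
  revert hk
  decide +kernel

variable {G : Type*} [Group G] [Finite G] {D : Set G}

/-- Elements of order three with 36 and 27 fixed members exist in every group of type M(22). -/
theorem exists_fix_counts (hD : Cfsg.IsThreeTranspositionGroup D)
    (hprim : Cfsg.IsPrimitiveUnderConj D) (h22 : Cfsg.IsOfTypeM22 G D) :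
    (∃ r : G, orderOf r = 3 ∧ {y | y ∈ D ∧ Commute r y}.ncard = 36) ∧
      ∃ r : G, orderOf r = 3 ∧ {y | y ∈ D ∧ Commute r y}.ncard = 27 := by
  haveI : Finite Fi22 := Fi22Type.finite_fi22
  haveI : Fact (Nat.Prime 3) := ⟨Nat.prime_three⟩
  obtain ⟨-, d, hd, -⟩ := id h22
  obtain ⟨hZ, -⟩ := id h22
  obtain ⟨e, he, -⟩ := H97.Uniq.m22_exists_equiv hD hprim hZ h22
    (H17.class_group Fi22Type.cls_class) Fi22Type.primitive Fi22Type.center_bot
    Fi22Type.isOfTypeM22 hd (mem_conjugatesOf_self (a := H4.ThreeTransp.Fi22.dd))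
  have back : ∀ x : Fi22, {y | y ∈ D ∧ Commute (e.symm x) y}.ncard =
      {y | y ∈ Fi22Type.cls ∧ Commute x y}.ncard := by
    intro x
    rw [← Set.ncard_image_of_injective {y | y ∈ D ∧ Commute (e.symm x) y} e.injective]
    congr 1
    ext y
    constructor
    · rintro ⟨z, ⟨hz, hc⟩, rfl⟩
      have := hc.map e
      rw [e.apply_symm_apply] at this
      exact ⟨he ▸ ⟨z, hz, rfl⟩, this⟩
    · rintro ⟨hy, hc⟩
      rw [← he] at hy
      obtain ⟨z, hz, rfl⟩ := hy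
      have := hc.map e.symm
      rw [e.symm_apply_apply] at this
      exact ⟨z, ⟨hz, this⟩, rfl⟩
  obtain ⟨h1, h2, h3, h4, h5, h6⟩ := list_facts
  have c36 := fix_ncard (w := word36) (by decide) fix36_check h1 h2 h3
  have c27 := fix_ncard (w := word27) (by decide) fix27_check h4 h5 h6
  exact ⟨⟨e.symm (Fi22U.el word36), by
      rw [MulEquiv.orderOf_eq, orderOf_eq_prime cube36 (ne_one_of_ncard (by norm_num) c36)],
      (back _).trans c36⟩,
    ⟨e.symm (Fi22U.el word27), by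
      rw [MulEquiv.orderOf_eq, orderOf_eq_prime cube27 (ne_one_of_ncard (by norm_num) c27)],
      (back _).trans c27⟩⟩

end Cfsg.Agent.H72.M22Three
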