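import Cfsg.Agent.H93.M22Three.Main
import Cfsg.Agent.H37.M22Classes.Width

/-!
Type M(22): the members inducing given reflections on the abelian group of order `3 ^ 5`.
-/

set_option autoImplicit false

namespace Cfsg.Agent.H72.M22Three

open Cfsg
open Cfsg.Agent
open Cfsg.Agent.H93.M22Three
open Cfsg.Agent.H37.M22Classes (Fix)

variable {G : Type*} [Group G] {D : Set G} {a d : G}

/-- A member inducing the reflection in `r`. -/
def Lift (M : Mdl D a d) (r : V5) (m : G) : Prop := m ∈ D ∧ M.Ind m (rf b5 r)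

/-- Vectors of norm one, pairwise different up to sign, orthogonal to `v`. -/
structure Lines {k : ℕ} (Φ : Fin k → V5) (v : V5) : Prop where
  norm : ∀ i, b5 (Φ i) (Φ i) = 1
  perp : ∀ i, b5 v (Φ i) = 0
  sep : ∀ i j, Φ i = Φ j ∨ Φ i = -Φ j → i = j

theorem commute_of_conj_eq {x y : G} (h : x * y * x⁻¹ = y) : Commute x y :=
  mul_inv_eq_iff_eq_mul.1 h

variable [Finite G] (hs : Sys D) (M : Mdl D a d)
include hs

omit [Finite G] in
theorem Lift.commute_κ {r v : V5} {m : G} (hm : Lift M r m) (hv : b5 v r = 0) :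
    Commute (M.κ v) m := by
  refine (commute_of_conj_eq ?_).symm
  rw [hm.2 v, rf_of_orth frm5 hv]

omit [Finite G] in
theorem Lift.shift {r : V5} {m : G} (hm : Lift M r m) (u : V5) :
    Lift M r (M.κ u * m * (M.κ u)⁻¹) := by
  refine ⟨H17.class_conj hs.cls _ m hm.1, ?_⟩
  rw [← M.κ_neg hs]
  exact ((M.ind_κ hs u).comp hm.2).comp (M.ind_κ hs (-u))

omit [Finite G] in
theorem Lift.shift_self {r : V5} {m : G} (hr : b5 r r = 1) (hm : Lift M r m) :
    M.κ r * m * (M.κ r)⁻¹ = M.κ (-r) * m := by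
  have h := hm.2 (-r)
  rw [(rf_iso frm5 hr).neg, rf_self frm5 hr, neg_neg] at h
  rw [← M.κ_neg hs, show M.κ r * m * M.κ (-r) = M.κ r * (m * M.κ (-r) * m⁻¹) * m by group, h,
    ← M.κ_add hs]
  congr 2
  ext i
  simp only [Pi.add_apply, Pi.neg_apply]
  linear_combination (r i) * three_eq

/-- Every norm-one vector has a lift. -/
theorem exists_lift {r : V5} (hr : b5 r r = 1) : ∃ m, Lift M r m := by
  have hr0 : r ≠ 0 := fun e => by rw [e, frm5.zero_left] at hr; exact zero_ne_one hr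
  obtain ⟨n, h, hn, hi, i, hend⟩ := M.move_rep hs hr0
  obtain rfl : i = 0 := by
    refine rep5_norm i 0 ?_
    rw [rep5_zero, b5_ax_ax, ← hr, ← hi.form r r]
    rcases hend with e | e <;> rw [e]
    rw [b5_neg_neg]
  rw [rep5_zero] at hend
  obtain ⟨g', hg', -, hgg'⟩ := hn.inv hs
  refine ⟨n⁻¹ * a * n, ?_, ((hg'.comp (M.ind_a hs)).comp hn).congr fun x => ?_⟩
  · have := H17.class_conj hs.cls n⁻¹ a M.ha
    rwa [inv_inv] at this
  · have e : rf b5 ax (h x) = h (rf b5 r x) := by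
      rw [hi.map_rf]
      rcases hend with e | e <;> rw [e]
      rw [rf_neg frm5]
    show g' (rf b5 ax (h x)) = _
    rw [e, hgg']

/-- A lift determines its line. -/
theorem Lift.line_eq {r s : V5} {m : G} (hr : b5 r r = 1) (h : Lift M r m)
    (h' : Lift M s m) : s = r ∨ s = -r := by
  have e := h.2.unique hs h'.2 r
  rw [rf_self frm5 hr] at e
  have e' : r = b5 r s • s := by
    ext i
    have := congrFun e i
    simp [rf] at this ⊢
    linear_combination this + (r i) * three_eq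
  rcases (by decide : ∀ t : K3, t = 0 ∨ t = 1 ∨ t = -1) (b5 r s) with t | t | t <;> rw [t] at e'
  · rw [zero_smul] at e'
    rw [e', frm5.zero_left] at hr
    exact absurd hr zero_ne_one
  · exact Or.inl (by rw [e', one_smul])
  · exact Or.inr (by rw [e', neg_one_smul, neg_neg])

/-- Lifts of orthogonal lines commute. -/
theorem Lift.commute_of_orth {r s : V5} {m m' : G} (hr : b5 r r = 1) (hrs : b5 r s = 0)
    (h : Lift M r m) (h' : Lift M s m') : Commute m m' := by
  by_contra hnc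
  have h3 := H32.M22Line.prod_pow_three hs.cls.1 h.1 h'.1 hnc
  have hi := h.2.comp h'.2
  have h9 := (hi.comp hi).comp hi
  rw [show m * m' * (m * m') * (m * m') = (m * m') ^ 3 by rw [pow_succ, pow_two], h3] at h9
  have e := h9.unique hs M.ind_one r
  simp only [rf_of_orth frm5 hrs, rf_self frm5 hr, (rf_iso frm5 hr).neg] at e
  have hs0 : rf b5 s (-r) = -r := rf_of_orth frm5 (by rw [frm5.neg_left, hrs, neg_zero])
  simp only [hs0, (rf_iso frm5 hr).neg, rf_self frm5 hr, neg_neg, rf_of_orth frm5 hrs] at e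
  have h2 : b5 (-r) r = b5 r r := by rw [e]
  rw [frm5.neg_left, hr] at h2
  exact absurd h2 (by decide)

/-- Lifts of different non-orthogonal lines do not commute. -/
theorem Lift.orth_of_commute {r s : V5} {m m' : G} (hr : b5 r r = 1) (hs1 : b5 s s = 1)
    (hne : ¬ (s = r ∨ s = -r)) (h : Lift M r m) (h' : Lift M s m') (hc : Commute m m') :
    b5 r s = 0 := by
  by_contra hb
  have h2 := h'.2.comp h.2
  rw [← hc.eq] at h2
  have e := (h.2.comp h'.2).unique hs h2 r
  simp only [rf_self frm5 hr, (rf_iso frm5 hs1).neg] at e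
  rw [show rf b5 s r = r + b5 r s • s from rfl, rf, frm5.add, hr, frm5.smul, frm5.comm s r] at e
  have e' : s = b5 r s • r := by
    have hq := (by decide : ∀ t : K3, t ≠ 0 → t * t = 1) _ hb
    ext i
    have := congrFun e i
    simp at this ⊢
    linear_combination (-(b5 r s)) * this + (b5 r s * r i + 2 * s i) * hq + (s i + b5 r s * r i) * three_eq
  rcases (by decide : ∀ t : K3, t ≠ 0 → t = 1 ∨ t = -1) _ hb with t | t <;> rw [t] at e'
  · exact hne (Or.inl (by rw [e', one_smul]))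
  · exact hne (Or.inr (by rw [e', neg_one_smul]))

omit [Finite G] in
theorem Lift.prod_mem_torus {r : V5} {m m' : G} (hr : b5 r r = 1) (h : Lift M r m)
    (h' : Lift M r m') : M.Ind (m * m') (fun v => v) :=
  (h.2.comp h'.2).congr fun x => rf_rf frm5 hr x

/-- Commuting lifts of one line are equal. -/
theorem Lift.eq_of_commute {r : V5} {m m' : G} (hr : b5 r r = 1) (h : Lift M r m)
    (h' : Lift M r m') (hc : Commute m m') : m = m' := by
  have hA := M.mem_of_ind_id hs (h.prod_mem_torus hs M hr h')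
  have h3 := (M.torus_elementary hs).2 _ hA
  have h2 : (m * m') ^ 2 = 1 := by
    rw [hc.mul_pow, pow_two, pow_two, H17.sq_one hs.cls.1 h.1, H17.sq_one hs.cls.1 h'.1, one_mul]
  have h1 : m * m' = 1 := by rw [pow_succ, h2, one_mul] at h3; exact h3
  rw [eq_inv_of_mul_eq_one_left h1, H17.inv_self hs.cls.1 h'.1]

omit [Finite G] in
/-- The three lifts of a line differ. -/
theorem Lift.shift_injective {r : V5} {m : G} (hr : b5 r r = 1) (h : Lift M r m) {t t' : K3}
    (e : M.κ (t • r) * m * (M.κ (t • r))⁻¹ = M.κ (t' • r) * m * (M.κ (t' • r))⁻¹) : t = t' := by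
  have hu : M.κ (-(t' • r) + t • r) * m * (M.κ (-(t' • r) + t • r))⁻¹ = m := by
    rw [M.κ_add hs, M.κ_neg hs, mul_inv_rev, inv_inv,
      show (M.κ (t' • r))⁻¹ * M.κ (t • r) * m * ((M.κ (t • r))⁻¹ * M.κ (t' • r)) =
        (M.κ (t' • r))⁻¹ * (M.κ (t • r) * m * (M.κ (t • r))⁻¹) * M.κ (t' • r) by group, e]
    group
  have hc := (commute_of_conj_eq hu).symm
  have h1 := h.2 (-(t' • r) + t • r)
  rw [hc.eq, mul_inv_cancel_right] at h1
  have h2 := congrArg (fun x => b5 x r) (M.κ_inj hs h1)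
  simp only [rf, frm5.add, frm5.neg_left, frm5.smul, hr, mul_one] at h2
  linear_combination -h2

section Family

variable {k : ℕ} {Φ : Fin k → V5} {v : V5} (hΦ : Lines Φ v)
include hΦ

omit [Finite G] in
theorem lift_mem_fix {i : Fin k} {m : G} (h : Lift M (Φ i) m) : m ∈ Fix D (M.κ v) :=
  ⟨h.1, h.commute_κ hs M (hΦ.perp i)⟩

/-- The lifts of the lines are fixed members; if there are no more, these are all of them. -/
theorem fix_lifts :
    3 * k ≤ (Fix D (M.κ v)).ncard ∧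
      ((Fix D (M.κ v)).ncard = 3 * k → ∀ y ∈ Fix D (M.κ v), ∃ i, Lift M (Φ i) y) := by
  choose m hm using fun i => exists_lift hs M (hΦ.norm i)
  obtain ⟨f, hf⟩ : ∃ f : Fin k × K3 → G, ∀ p, f p = M.κ (p.2 • Φ p.1) * m p.1 * (M.κ (p.2 • Φ p.1))⁻¹ :=
    ⟨_, fun _ => rfl⟩
  have hl : ∀ p, Lift M (Φ p.1) (f p) := fun p => hf p ▸ (hm p.1).shift hs M _
  have hinj : Function.Injective f := by
    rintro ⟨i, t⟩ ⟨j, t'⟩ e
    have h2 := hl (j, t')
    rw [← e] at h2
    obtain rfl : i = j := ((hΦ.sep j i ((hl (i, t)).line_eq hs M (hΦ.norm i) h2)).symm)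
    simp only [hf] at e
    rw [(hm i).shift_injective hs M (hΦ.norm i) e]
  have hsub : Set.range f ⊆ Fix D (M.κ v) := by
    rintro _ ⟨p, rfl⟩
    exact lift_mem_fix hs M hΦ (hl p)
  have hcard : (Set.range f).ncard = 3 * k := by
    rw [← Nat.card_coe_set_eq, Nat.card_range_of_injective hinj]
    simp [K3, mul_comm]
  refine ⟨hcard ▸ Set.ncard_le_ncard hsub (Set.toFinite _), fun hk y hy => ?_⟩
  rw [← Set.eq_of_subset_of_ncard_le hsub (by rw [hcard, hk]) (Set.toFinite _)] at hy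
  obtain ⟨p, rfl⟩ := hy
  exact ⟨p.1, hl p⟩

theorem lift_commute_iff {i j : Fin k} (hij : i ≠ j) {m m' : G} (h : Lift M (Φ i) m)
    (h' : Lift M (Φ j) m') : Commute m m' ↔ b5 (Φ i) (Φ j) = 0 :=
  ⟨h.orth_of_commute hs M (hΦ.norm i) (hΦ.norm j) (fun e => hij (hΦ.sep j i e).symm) h',
    fun e => h.commute_of_orth hs M (hΦ.norm i) e h'⟩

/-- When the perpendicular sets separate the lines, an element permuting the fixed members maps
the lines into the abelian group. -/
theorem map_line (hall : ∀ y ∈ Fix D (M.κ v), ∃ i, Lift M (Φ i) y)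
    (hsep : ∀ i j, i ≠ j → b5 (Φ i) (Φ j) ≠ 0 → ∃ l, l ≠ i ∧ l ≠ j ∧
      ¬ (b5 (Φ l) (Φ i) = 0 ↔ b5 (Φ l) (Φ j) = 0))
    {n : G} (hn : ∀ y, y ∈ Fix D (M.κ v) ↔ n * y * n⁻¹ ∈ Fix D (M.κ v)) (i : Fin k) :
    n * M.κ (Φ i) * n⁻¹ ∈ M.torus hs := by
  obtain ⟨m, hm⟩ := exists_lift hs M (hΦ.norm i)
  have hm' := hm.shift hs M (Φ i)
  obtain ⟨m', hm'e⟩ : ∃ m', m' = M.κ (Φ i) * m * (M.κ (Φ i))⁻¹ := ⟨_, rfl⟩
  rw [← hm'e] at hm'
  have hne : m' ≠ m := by
    intro e
    have h := hm.shift_self hs M (hΦ.norm i)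
    rw [← hm'e, e] at h
    have h1 : M.κ (-(Φ i)) = M.κ 0 := by
      rw [M.κ_zero hs]; exact mul_eq_right.1 h.symm
    have h2 := congrArg (fun x => b5 x (Φ i)) (M.κ_inj hs h1)
    simp only [frm5.neg_left, frm5.zero_left, hΦ.norm, neg_eq_zero] at h2
    exact one_ne_zero h2
  have hnc : ¬ Commute m' m := fun hc => hne (hm'.eq_of_commute hs M (hΦ.norm i) hm hc)
  obtain ⟨j, hj⟩ := hall _ ((hn m').1 (lift_mem_fix hs M hΦ hm'))
  obtain ⟨j', hj'⟩ := hall _ ((hn m).1 (lift_mem_fix hs M hΦ hm))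
  have hjj : j = j' := by
    by_contra hne'
    have hb : b5 (Φ j) (Φ j') ≠ 0 := fun e =>
      hnc ((H17.commute_conj n).1 ((lift_commute_iff hs M hΦ hne' hj hj').2 e))
    obtain ⟨l, hlj, hlj', hl⟩ := hsep j j' hne' hb
    obtain ⟨p, hp⟩ := exists_lift hs M (hΦ.norm l)
    rw [← lift_commute_iff hs M hΦ hlj hp hj, ← lift_commute_iff hs M hΦ hlj' hp hj'] at hl
    obtain ⟨p', hp'⟩ : ∃ p', n * p' * n⁻¹ = p := ⟨n⁻¹ * p * n, by group⟩
    obtain ⟨q, hq⟩ := hall p' ((hn p').2 (hp'.symm ▸ lift_mem_fix hs M hΦ hp))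
    rw [← hp', H17.commute_conj, H17.commute_conj] at hl
    by_cases hqi : q = i
    · subst hqi
      have hno : ∀ {x : G} {l' : Fin k}, l ≠ l' → Lift M (Φ q) x → Lift M (Φ l') (n * x * n⁻¹) →
          ¬ Commute p' x := by
        intro x l' hne2 hx hx' hc
        have e := hq.eq_of_commute hs M (hΦ.norm q) hx hc
        rw [← e, hp'] at hx'
        exact hne2 (hΦ.sep l' l (hp.line_eq hs M (hΦ.norm l) hx')).symm
      exact hl ⟨fun hc => absurd hc (hno hlj hm' hj), fun hc => absurd hc (hno hlj' hm hj')⟩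
    · rw [lift_commute_iff hs M hΦ hqi hq hm', lift_commute_iff hs M hΦ hqi hq hm] at hl
      exact hl Iff.rfl
  subst hjj
  have hA := M.mem_of_ind_id hs (hj.prod_mem_torus hs M (hΦ.norm j) hj')
  rw [hm'e, hm.shift_self hs M (hΦ.norm i),
    show n * (M.κ (-Φ i) * m) * n⁻¹ * (n * m * n⁻¹) = n * M.κ (-Φ i) * (m * m) * n⁻¹ by group,
    H17.sq_one hs.cls.1 hm.1, mul_one] at hA
  have := inv_mem hA
  rwa [M.κ_neg hs, show (n * (M.κ (Φ i))⁻¹ * n⁻¹)⁻¹ = n * M.κ (Φ i) * n⁻¹ by group] at this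

end Family

omit hs [Finite G] in
/-- An element normalising a cyclic group permutes the members fixed by its generator. -/
theorem fix_normalizer (hconj : ∀ g : G, ∀ d ∈ D, g * d * g⁻¹ ∈ D) {x n : G}
    (hn : n ∈ Subgroup.normalizer (Subgroup.zpowers x : Set G)) (y : G) :
    y ∈ Fix D x ↔ n * y * n⁻¹ ∈ Fix D x := by
  have hz : ∀ {u w : G}, w ∈ Subgroup.zpowers u → Commute u y → Commute w y := by
    rintro u w ⟨k, rfl⟩ h
    exact h.zpow_left k
  have hm : n⁻¹ * x * n ∈ Subgroup.zpowers x := by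
    have := (Subgroup.mem_normalizer_iff.1 (inv_mem hn) x).1 (Subgroup.mem_zpowers x)
    rwa [inv_inv] at this
  refine ⟨fun h => ⟨hconj n y h.1, ?_⟩, fun h => ⟨?_, ?_⟩⟩
  · have := (H17.commute_conj n).2 (hz hm h.2)
    rwa [show n * (n⁻¹ * x * n) * n⁻¹ = x by group] at this
  · have := hconj n⁻¹ _ h.1
    rwa [show n⁻¹ * (n * y * n⁻¹) * n⁻¹⁻¹ = y by group] at this
  · obtain ⟨k, hk⟩ := (Subgroup.mem_normalizer_iff.1 hn x).1 (Subgroup.mem_zpowers x)
    refine (H17.commute_conj n).1 ?_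
    rw [← hk]
    exact h.2.zpow_left k

end Cfsg.Agent.H72.M22Three
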