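import Cfsg.Agent.H72.M22Three.Lifts
import Cfsg.Agent.H72.M22Three.Counts
import Cfsg.Agent.H43.M22Triples

/-!
Type M(22): the three classes of subgroups of order three fixing a member, their widths and their
numbers of fixed members, read in the abelian group of order `3 ^ 5`.
-/

set_option autoImplicit false

namespace Cfsg.Agent.H72.M22Three

open Cfsg
open Cfsg.Agent
open Cfsg.Agent.H93.M22Three
open Cfsg.Agent.H37.M22Classes (Fix kk)

/-- A pure axis orthogonal to the second and third representative. -/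
def perpAx : Fin 3 → V5 := ![![0, 1, 0, 0, 0], ![1, 0, 0, 0, 0], ![1, 0, 0, 0, 0]]

/-- Four pairwise orthogonal lines of norm one. -/
def frame4 : Fin 4 → V5 :=
  ![![1, 0, 0, 0, 0], ![0, 1, 0, 0, 0], ![0, 0, 1, 0, 0], ![0, 0, 0, 1, 0]]

/-- The lines orthogonal to a vector of norm minus one. -/
def linesV : Fin 12 → V5 :=
  ![![1, 0, 0, 0, 0], ![0, 1, 0, 0, 0], ![0, 0, 1, 0, 0], ![0, 0, 0, 1, 0],
    ![1, 1, 1, 1, 0], ![1, 1, 1, -1, 0], ![1, 1, -1, 1, 0], ![1, 1, -1, -1, 0],
    ![1, -1, 1, 1, 0], ![1, -1, 1, -1, 0], ![1, -1, -1, 1, 0], ![1, -1, -1, -1, 0]]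

/-- The three lines spanning the orthogonal space of an isotropic vector modulo the vector. -/
def wlines : Fin 3 → V5 :=
  ![![1, 0, 0, 0, 0], ![0, 1, -1, 0, 1], ![0, -1, 1, 0, 1]]

/-- The lines orthogonal to an isotropic vector, by component and shift. -/
def linesW (i : Fin 3 × K3) : V5 := wlines i.1 + i.2 • u05

/-- The nine lines orthogonal to an isotropic vector. -/
def linesW9 (i : Fin 9) : V5 := linesW (finProdFinEquiv.symm i)

theorem linesV_lines : Lines linesV (rep5 1) := by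
  refine ⟨?_, ?_, ?_⟩ <;> decide +kernel

theorem linesW9_lines : Lines linesW9 (rep5 2) := by
  refine ⟨?_, ?_, ?_⟩ <;> decide +kernel

theorem frame4_orth : ∀ i j, i ≠ j → b5 (frame4 i) (frame4 j) = 0 := by decide +kernel

theorem frame4_lines : Lines frame4 (rep5 1) := by
  refine ⟨?_, ?_, ?_⟩ <;> decide +kernel

theorem perpAx_spec : ∀ i, b5 (rep5 i) (perpAx i) = 0 ∧ b5 (perpAx i) (perpAx i) = 1 := by
  decide +kernel

/-- The six axes of the six-dimensional space. -/
def axes6 (i : Fin 6) : V6 := Pi.single i 1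

theorem axes6_spec : (∀ i, b6 (axes6 i) (axes6 i) = 1) ∧
    (∀ i j, i ≠ j → b6 (axes6 i) (axes6 j) = 0) := by decide +kernel

variable {G : Type*} [Group G] [Finite G] {D : Set G} {a d : G}

omit [Finite G] in
theorem ncard_fix_conj (hconj : ∀ g : G, ∀ d ∈ D, g * d * g⁻¹ ∈ D) {x x' g : G}
    (h : (Subgroup.zpowers x).map (MulAut.conj g).toMonoidHom = Subgroup.zpowers x') :
    (Fix D x').ncard = (Fix D x).ncard := by
  have hx : g * x * g⁻¹ ∈ Subgroup.zpowers x' := h ▸ ⟨x, Subgroup.mem_zpowers x, rfl⟩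
  have hx' : x' ∈ (Subgroup.zpowers x).map (MulAut.conj g).toMonoidHom := h ▸ Subgroup.mem_zpowers x'
  have e : Fix D x' = (fun y => g * y * g⁻¹) '' Fix D x := by
    ext y
    constructor
    · intro hy
      refine ⟨g⁻¹ * y * g, ⟨?_, ?_⟩, by group⟩
      · have := hconj g⁻¹ y hy.1; rwa [inv_inv] at this
      · refine (H17.commute_conj g).1 ?_
        rw [show g * (g⁻¹ * y * g) * g⁻¹ = y by group]
        obtain ⟨k, hk⟩ := hx
        rw [← hk]
        exact hy.2.zpow_left k
    · rintro ⟨z, hz, rfl⟩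
      refine ⟨hconj g z hz.1, ?_⟩
      obtain ⟨u, ⟨k, rfl⟩, hu⟩ := hx'
      rw [← hu]
      exact (H17.commute_conj g).2 (hz.2.zpow_left k)
  rw [e, Set.ncard_image_of_injective (f := fun y => g * y * g⁻¹) _ (MulAut.conj g).injective]

theorem fix_eq_inter (r : G) :
    D ∩ (Subgroup.centralizer (Subgroup.zpowers r : Set G) : Set G) = Fix D r :=
  H37.M22Classes.fix_eq r

variable (hs : Sys D) (M : Mdl D a d)
include hs

theorem rep_fixed (i : Fin 3) : ∃ m ∈ D, Commute (M.κ (rep5 i)) m := by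
  obtain ⟨m, hm⟩ := exists_lift hs M (perpAx_spec i).2
  exact ⟨m, hm.1, hm.commute_κ hs M (perpAx_spec i).1⟩

theorem rep_order (i : Fin 3) : orderOf (M.κ (rep5 i)) = 3 := by
  rw [← Nat.card_zpowers]; exact M.card_point hs (rep5_ne_zero i)

/-- The representatives are pairwise non-conjugate. -/
theorem rep_inj {i j : Fin 3} {g : G}
    (h : (Subgroup.zpowers (M.κ (rep5 i))).map (MulAut.conj g).toMonoidHom =
      Subgroup.zpowers (M.κ (rep5 j))) : i = j := by
  rw [Mdl.map_point] at h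
  have hmem : g * M.κ (rep5 i) * g⁻¹ ∈ Subgroup.zpowers (M.κ (rep5 j)) := h ▸ Subgroup.mem_zpowers _
  obtain ⟨n, hn, e⟩ := M.fusion hs ⟨rep5 i, rfl⟩
    (Subgroup.zpowers_le.2 (show M.κ (rep5 j) ∈ M.torus hs from ⟨rep5 j, rfl⟩) hmem)
  obtain ⟨f, hf⟩ := M.exists_ind hs hn
  rw [hf] at e
  obtain ⟨t, ht⟩ := M.mem_zpowers_κ hs (e ▸ hmem)
  have hne : f (rep5 i) ≠ 0 := fun h0 =>
    rep5_ne_zero i (hf.injective hs (h0.trans (hf.zero hs).symm))
  have ht2 : t * t = 1 := (by decide : ∀ t : K3, t ≠ 0 → t * t = 1) t fun h0 =>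
    hne (by rw [ht, h0, zero_smul])
  refine rep5_norm i j ?_
  rw [← (hf.iso hs).form, ht, frm5.smul, frm5.smul_right, ← mul_assoc, ht2, one_mul]

theorem width_ge {ι : Type} [Fintype ι] {x : G} (f : ι → G) (hinj : Function.Injective f)
    (hf : ∀ i, f i ∈ Fix D x) (hc : ∀ i j, Commute (f i) (f j)) :
    Fintype.card ι ≤
      Cfsg.commutingWidth (D ∩ (Subgroup.centralizer (Subgroup.zpowers x : Set G) : Set G)) := by
  refine le_csSup ⟨Nat.card G, ?_⟩ ⟨Set.range f, ?_, Set.toFinite _, ?_, ?_⟩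
  · rintro n ⟨E, -, -, -, rfl⟩
    rw [← Nat.card_coe_set_eq]
    exact Nat.card_le_card_of_injective _ Subtype.val_injective
  · rintro _ ⟨i, rfl⟩
    rw [fix_eq_inter]
    exact hf i
  · rintro _ ⟨i, rfl⟩ _ ⟨j, rfl⟩
    exact hc i j
  · rw [← Nat.card_coe_set_eq, Nat.card_range_of_injective hinj, Nat.card_eq_fintype_card]

/-- The representatives cover the subgroups of order three fixing a member and their widths are
6, 4 and 3. -/
theorem rep_classes :
    (∀ r : G, orderOf r = 3 → (∃ m ∈ D, Commute r m) → ∃ i, ∃ g : G,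
      (Subgroup.zpowers r).map (MulAut.conj g).toMonoidHom = Subgroup.zpowers (M.κ (rep5 i))) ∧
    ∀ i, Cfsg.commutingWidth
      (D ∩ (Subgroup.centralizer (Subgroup.zpowers (M.κ (rep5 i)) : Set G) : Set G)) = kk i := by
  have hD := H17.class_group hs.cls
  obtain ⟨F, i1, i2, i3, hF, hdata⟩ := H97.M22.exists_data hD hs.prim hs.type
    (H43.M22.two_triples hs.cls hs.prim hs.type)
  obtain ⟨Y, -, hYw, hYall⟩ := H37.M22Classes.exists_fixing_reps hdata M.ha
  choose σ g hσ using fun i => hYall _ (rep_order hs M i) (rep_fixed hs M i)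
  have back : ∀ {X Z : Subgroup G} {g : G}, X.map (MulAut.conj g).toMonoidHom = Z →
      Z.map (MulAut.conj g⁻¹).toMonoidHom = X := by
    intro X Z g h
    rw [← h, Subgroup.map_map]
    convert Subgroup.map_id X using 2
    ext x
    simp [mul_assoc]
  have trans : ∀ {X Y Z : Subgroup G} {g h : G}, X.map (MulAut.conj g).toMonoidHom = Y →
      Y.map (MulAut.conj h).toMonoidHom = Z → X.map (MulAut.conj (h * g)).toMonoidHom = Z := by
    intro X Y Z g h e e'
    rw [← e', ← e, Subgroup.map_map]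
    congr 1
    ext x
    simp [mul_assoc]
  have hinj : Function.Injective σ := fun i j e =>
    rep_inj hs M (trans (e ▸ hσ i) (back (hσ j)))
  have hsur := Finite.injective_iff_surjective.1 hinj
  refine ⟨fun r hr hfix => ?_, ?_⟩
  · obtain ⟨j, g', hg'⟩ := hYall r hr hfix
    obtain ⟨i, rfl⟩ := hsur j
    exact ⟨i, _, trans hg' (back (hσ i))⟩
  have hw : ∀ i, Cfsg.commutingWidth
      (D ∩ (Subgroup.centralizer (Subgroup.zpowers (M.κ (rep5 i)) : Set G) : Set G)) = kk (σ i) := by
    intro i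
    rw [← hYw (σ i), ← hσ i, H37.M22Classes.commutingWidth_conj (H17.class_conj hs.cls)]
  have h0 : 6 ≤ kk (σ 0) := by
    rw [← hw 0]
    refine le_trans (le_of_eq (Fintype.card_fin 6).symm)
      (width_ge hs (fun i => M.τ (axes6 i)) ?_ ?_ ?_)
    · intro i j e
      by_contra hne
      rcases M.inj _ _ (axes6_spec.1 i) (axes6_spec.1 j) e with h | h
      · have := axes6_spec.2 i j hne
        rw [h, axes6_spec.1] at this
        exact one_ne_zero this
      · have := axes6_spec.2 i j hne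
        rw [h, frm6.neg_right, axes6_spec.1] at this
        exact one_ne_zero (neg_eq_zero.1 this)
    · intro i
      have hm := M.mem _ (axes6_spec.1 i)
      rw [rep5_zero, M.κ_ax' hs]
      exact ⟨hm.1, (M.commute_left (Subgroup.subset_closure hm)).2.2⟩
    · intro i j
      by_cases h : i = j
      · subst h; exact Commute.refl _
      · exact (M.comm _ _ (axes6_spec.1 i) (axes6_spec.1 j)).2 (Or.inl (axes6_spec.2 i j h))
  have h1 : 4 ≤ kk (σ 1) := by
    rw [← hw 1]
    choose m hm using fun i => exists_lift hs M (frame4_lines.norm i)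
    refine le_trans (le_of_eq (Fintype.card_fin 4).symm) (width_ge hs m ?_ ?_ ?_)
    · intro i j e
      have h := hm j
      rw [← e] at h
      exact (frame4_lines.sep j i ((hm i).line_eq hs M (frame4_lines.norm i) h)).symm
    · exact fun i => lift_mem_fix hs M frame4_lines (hm i)
    · intro i j
      by_cases h : i = j
      · subst h; exact Commute.refl _
      · exact (hm i).commute_of_orth hs M (frame4_lines.norm i) (frame4_orth i j h) (hm j)
  have s0 : σ 0 = 0 := (by decide : ∀ x : Fin 3, 6 ≤ kk x → x = 0) _ h0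
  have s1 : σ 1 = 1 := (by decide : ∀ x : Fin 3, 4 ≤ kk x → x ≠ 0 → x = 1) _ h1
    fun e => absurd (hinj (e.trans s0.symm)) (by decide)
  have s2 : σ 2 = 2 := (by decide : ∀ x : Fin 3, x ≠ 0 → x ≠ 1 → x = 2) _
    (fun e => absurd (hinj (e.trans s0.symm)) (by decide))
    (fun e => absurd (hinj (e.trans s1.symm)) (by decide))
  intro i
  rw [hw i]
  fin_cases i
  · exact congrArg kk s0
  · exact congrArg kk s1
  · exact congrArg kk s2

/-- The fixed members of the second and third representative are exactly the lifts. -/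
theorem fix_counts : (Fix D (M.κ (rep5 1))).ncard = 36 ∧ (Fix D (M.κ (rep5 2))).ncard = 27 := by
  have hD := H17.class_group hs.cls
  obtain ⟨⟨r, hr, hr36⟩, ⟨s, hs3, hs27⟩⟩ := exists_fix_counts hD hs.prim hs.type
  have g0 : 126 ≤ (Fix D (M.κ (rep5 0))).ncard := by
    rw [rep5_zero, M.κ_ax' hs, ← hs.cnt.common a M.ha d M.hd M.hnc]
    exact Set.ncard_le_ncard (fun y hy => ⟨hy.1, (M.commute_left (Subgroup.subset_closure hy)).2.2⟩)
      (Set.toFinite _)
  have g1 := (fix_lifts hs M linesV_lines).1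
  have find : ∀ {x : G} {k : ℕ}, orderOf x = 3 → (Fix D x).ncard = k → 0 < k →
      ∃ i, (Fix D (M.κ (rep5 i))).ncard = k := by
    intro x k hx hk hpos
    obtain ⟨m, hm, hxm⟩ := Set.nonempty_of_ncard_ne_zero (s := Fix D x) (by omega)
    obtain ⟨i, g, hg⟩ := (rep_classes hs M).1 x hx ⟨m, hm, hxm⟩
    exact ⟨i, (ncard_fix_conj (H17.class_conj hs.cls) hg).trans hk⟩
  obtain ⟨i, hi⟩ := find hr hr36 (by norm_num)
  obtain ⟨j, hj⟩ := find hs3 hs27 (by norm_num)
  have j2 : j = 2 := by
    rcases (by decide : ∀ x : Fin 3, x = 0 ∨ x = 1 ∨ x = 2) j with rfl | rfl | rfl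
    · omega
    · omega
    · rfl
  subst j2
  rcases (by decide : ∀ x : Fin 3, x = 0 ∨ x = 1 ∨ x = 2) i with rfl | rfl | rfl
  · omega
  · exact ⟨hi, hj⟩
  · omega

/-- Every fixed member of the second representative is a lift. -/
theorem fix_linesV : ∀ y ∈ Fix D (M.κ (rep5 1)), ∃ i, Lift M (linesV i) y :=
  (fix_lifts hs M linesV_lines).2 (fix_counts hs M).1

/-- Every fixed member of the third representative is a lift. -/
theorem fix_linesW : ∀ y ∈ Fix D (M.κ (rep5 2)), ∃ i, Lift M (linesW9 i) y :=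
  (fix_lifts hs M linesW9_lines).2 (fix_counts hs M).2

end Cfsg.Agent.H72.M22Three
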