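import Cfsg.Agent.H72.M22Three.Reps
import Cfsg.Agent.H24.Extraspecial

/-!
Type M(22): the extraspecial group of order `3 ^ 7` of a central point of the abelian group.
-/

set_option autoImplicit false

namespace Cfsg.Agent.H72.M22Three

open Cfsg
open Cfsg.Agent
open Cfsg.Agent.H93.M22Three
open Cfsg.Agent.H37.M22Classes (Fix)
open scoped commutatorElement

theorem rep5_two : rep5 2 = u05 := rfl

/-- Combinations of the three lines. -/
def wsum (c : V3) : V5 := c 0 • wlines 0 + c 1 • wlines 1 + c 2 • wlines 2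

/-- The transvections fixing the isotropic point. -/
def Ec (c : V3) (x : V5) : V5 := eich b5 u05 (-wsum c) x

theorem wsum_perp : ∀ c : V3, b5 (-wsum c) u05 = 0 := by decide +kernel

theorem wlines_perp : ∀ i, b5 (wlines i) u05 = 0 := by decide +kernel

theorem Ec_iso (c : V3) : IsIso b5 (Ec c) := eich_iso frm5 b5_u05 (wsum_perp c)

theorem Ec_add (c c' : V3) (x : V5) : Ec c (Ec c' x) = Ec (c + c') x := by
  rw [Ec, Ec, Ec, eich_add frm5 b5_u05 (wsum_perp c) (wsum_perp c')]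
  congr 1
  ext i
  simp [wsum]
  ring

theorem Ec_zero (x : V5) : Ec 0 x = x := by
  rw [Ec, show -wsum 0 = 0 by simp [wsum], eich_zero frm5]

theorem Ec_u05 (c : V3) : Ec c u05 = u05 := by
  rw [Ec, eich, b5_u05, frm5.comm u05 (-wsum c), wsum_perp]
  simp

theorem Ec_perp (c : V3) {y : V5} (hy : b5 y u05 = 0) : b5 (Ec c y) u05 = 0 := by
  conv_lhs => rw [← Ec_u05 c]
  rw [(Ec_iso c).form, hy]

theorem Ec_shift (c : V3) {y : V5} (hy : b5 y u05 = 0) : ∃ k : K3, Ec c y = y + k • u05 := by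
  refine ⟨-b5 y (-wsum c), ?_⟩
  rw [Ec, eich, hy, zero_smul, mul_zero, zero_smul, add_zero, add_zero, neg_smul, sub_eq_add_neg]

/-- The coordinate vectors. -/
def e3 (i : Fin 3) : V3 := Pi.single i 1

theorem V3_decomp : ∀ c : V3, c 0 • e3 0 + c 1 • e3 1 + c 2 • e3 2 = c := by decide +kernel

theorem perp_decomp_dec : ∀ n < 243, b5 (dec5 n) u05 = 0 →
    dec5 n = ((dec5 n) 1 - wsum (fun i => b5 (dec5 n) (wlines i)) 1) • u05 +
      wsum (fun i => b5 (dec5 n) (wlines i)) := by decide +kernel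

theorem perp_decomp {y : V5} (hy : b5 y u05 = 0) :
    ∃ (t : K3) (c : V3), y = t • u05 + wsum c := by
  have h := perp_decomp_dec (enc5 y) (enc5_lt y) (by rwa [dec5_enc5])
  rw [dec5_enc5] at h
  exact ⟨_, _, h⟩

theorem perp_param_inj : ∀ p q : K3 × V3,
    p.1 • u05 + wsum p.2 = q.1 • u05 + wsum q.2 → p = q := by decide +kernel

theorem perp_param : ∀ p : K3 × V3, b5 (p.1 • u05 + wsum p.2) u05 = 0 := by decide +kernel

theorem Ec_faithful : ∀ c : V3, (∀ i, Ec c (wlines i) = wlines i) → c = 0 := by decide +kernel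

theorem Ec_fixed_dec : ∀ n < 243, (∀ i, Ec (e3 i) (dec5 n) = dec5 n) →
    dec5 n = dec5 n 1 • u05 := by decide +kernel

theorem Ec_fixed {y : V5} (h : ∀ i, Ec (e3 i) y = y) : y = y 1 • u05 := by
  have h' := Ec_fixed_dec (enc5 y) (enc5_lt y) (by simpa only [dec5_enc5] using h)
  rwa [dec5_enc5] at h'

theorem linesW_orth : ∀ p q : Fin 3 × K3, b5 (linesW p) (linesW q) = 0 ↔ p.1 ≠ q.1 := by
  decide +kernel

theorem linesW_norm : ∀ p : Fin 3 × K3,
    b5 (linesW p) (linesW p) = 1 ∧ b5 (linesW p) u05 = 0 := by decide +kernel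

theorem linesW_sep : ∀ p q : Fin 3 × K3, linesW p = linesW q ∨ linesW p = -linesW q → p = q := by
  decide +kernel

theorem pair_map_dec : ∀ (i : Fin 3) (t t' : K3), ∀ n < 243,
    rf b5 (linesW (i, t)) (rf b5 (linesW (i, t')) (dec5 n)) = Ec ((t' - t) • e3 i) (dec5 n) := by
  decide +kernel

theorem pair_map (i : Fin 3) (t t' : K3) (x : V5) :
    rf b5 (linesW (i, t)) (rf b5 (linesW (i, t')) x) = Ec ((t' - t) • e3 i) x := by
  have h := pair_map_dec i t t' (enc5 x) (enc5_lt x)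
  rwa [dec5_enc5] at h

theorem comp_diff : ∀ i : Fin 3, ∃ j, j ≠ i := by decide

theorem linesW_shift (j : Fin 3) : linesW (j, 0) = wlines j ∧ linesW (j, 1) = wlines j + u05 := by
  simp [linesW]

theorem Ec_e3_wlines : ∀ i, ∃ k : K3, k ≠ 0 ∧ Ec (e3 i) (wlines i) = wlines i + k • u05 := by
  decide +kernel

variable {G : Type*} [Group G] [Finite G] {D : Set G} {a d : G} (hs : Sys D) (M : Mdl D a d)
include hs

/-- A member inducing the reflection in a line. -/
noncomputable def lw (p : Fin 3 × K3) : G := (exists_lift hs M (linesW_norm p).1).choose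

theorem lw_spec (p : Fin 3 × K3) : Lift M (linesW p) (lw hs M p) :=
  (exists_lift hs M (linesW_norm p).1).choose_spec

/-- Lifts of lines in different components commute. -/
theorem Lift.commute_comp {p q : Fin 3 × K3} {m m' : G} (hpq : p.1 ≠ q.1)
    (h : Lift M (linesW p) m) (h' : Lift M (linesW q) m') : Commute m m' :=
  h.commute_of_orth hs M (linesW_norm p).1 ((linesW_orth p q).2 hpq) h'

/-- The product of two members of one component. -/
noncomputable def nE (i : Fin 3) : G := lw hs M (i, 0) * lw hs M (i, 1)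

theorem nE_nc (i : Fin 3) : ¬ Commute (lw hs M (i, 0)) (lw hs M (i, 1)) := fun h =>
  (linesW_orth (i, 0) (i, 1)).1 ((lw_spec hs M (i, 0)).orth_of_commute hs M (linesW_norm _).1
    (linesW_norm _).1 (fun e => absurd (linesW_sep (i, 1) (i, 0) e) (by simp)) (lw_spec hs M _) h) rfl

theorem nE_ind (i : Fin 3) : M.Ind (nE hs M i) (Ec (e3 i)) :=
  ((lw_spec hs M (i, 0)).2.comp (lw_spec hs M (i, 1)).2).congr fun x => by
    rw [pair_map, sub_zero, one_smul]

theorem nE_cube (i : Fin 3) : nE hs M i ^ 3 = 1 :=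
  H32.M22Line.prod_pow_three hs.cls.1 (lw_spec hs M (i, 0)).1 (lw_spec hs M (i, 1)).1 (nE_nc hs M i)

theorem nE_commute_lift {i : Fin 3} {p : Fin 3 × K3} {m : G} (hp : p.1 ≠ i)
    (h : Lift M (linesW p) m) : Commute (nE hs M i) m :=
  ((h.commute_comp hs M (q := (i, 0)) hp (lw_spec hs M _)).symm).mul_left
    (h.commute_comp hs M (q := (i, 1)) hp (lw_spec hs M _)).symm

theorem nE_commute (i j : Fin 3) : Commute (nE hs M i) (nE hs M j) := by
  by_cases h : i = j
  · subst h; exact Commute.refl _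
  · exact (nE_commute_lift hs M (p := (j, 0)) (Ne.symm h) (lw_spec hs M _)).mul_right
      (nE_commute_lift hs M (p := (j, 1)) (Ne.symm h) (lw_spec hs M _))

theorem nE_pow_ind (i : Fin 3) (t : K3) : M.Ind (nE hs M i ^ t.val) (Ec (t • e3 i)) := by
  rcases (by decide : ∀ t : K3, t = 0 ∨ t = 1 ∨ t = 2) t with rfl | rfl | rfl
  · rw [ZMod.val_zero, pow_zero]
    exact M.ind_one.congr fun x => by rw [zero_smul, Ec_zero]
  · rw [ZMod.val_one, pow_one, one_smul]; exact nE_ind hs M i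
  · rw [show (2 : K3).val = 2 from rfl, pow_two, two_smul]
    exact ((nE_ind hs M i).comp (nE_ind hs M i)).congr fun x => Ec_add _ _ x

/-- The products of the three pairs. -/
noncomputable def nv (c : V3) : G :=
  nE hs M 0 ^ (c 0).val * nE hs M 1 ^ (c 1).val * nE hs M 2 ^ (c 2).val

theorem nv_ind (c : V3) : M.Ind (nv hs M c) (Ec c) :=
  (((nE_pow_ind hs M 0 (c 0)).comp (nE_pow_ind hs M 1 (c 1))).comp (nE_pow_ind hs M 2 (c 2))).congr
    fun x => by
      show Ec _ (Ec _ (Ec _ x)) = _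
      rw [Ec_add, Ec_add, V3_decomp]

theorem nv_add (c c' : V3) : nv hs M (c + c') = nv hs M c * nv hs M c' := by
  have hp : ∀ i j (s t : ℕ), Commute (nE hs M i ^ s) (nE hs M j ^ t) := fun i j s t =>
    (nE_commute hs M i j).pow_pow s t
  simp only [nv, Pi.add_apply, Mdl.pow_add_val (nE_cube hs M _)]
  rw [((hp 2 0 _ _).mul_right (hp 2 1 _ _)).mul_mul_mul_comm, (hp 1 0 _ _).mul_mul_mul_comm]

theorem nv_zero : nv hs M 0 = 1 := by simp [nv]

theorem nv_e3 (i : Fin 3) : nv hs M (e3 i) = nE hs M i := by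
  fin_cases i <;> simp [nv, e3, ZMod.val_one]

theorem nv_conj (c : V3) (y : V5) : nv hs M c * M.κ y = M.κ (Ec c y) * nv hs M c :=
  mul_inv_eq_iff_eq_mul.1 (nv_ind hs M c y)

theorem κnv_mul (y y' : V5) (c c' : V3) :
    M.κ y * nv hs M c * (M.κ y' * nv hs M c') = M.κ (y + Ec c y') * nv hs M (c + c') := by
  rw [M.κ_add hs, nv_add hs M, mul_assoc, ← mul_assoc (nv hs M c), nv_conj hs M c y']
  simp only [mul_assoc]

/-- The extraspecial group. -/
noncomputable def Q7 : Subgroup G where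
  carrier := {g | ∃ y c, b5 y u05 = 0 ∧ g = M.κ y * nv hs M c}
  one_mem' := ⟨0, 0, frm5.zero_left _, by rw [M.κ_zero hs, nv_zero hs M, one_mul]⟩
  mul_mem' := by
    rintro _ _ ⟨y, c, hy, rfl⟩ ⟨y', c', hy', rfl⟩
    exact ⟨_, _, by rw [frm5.add, hy, Ec_perp c hy', add_zero], κnv_mul hs M y y' c c'⟩
  inv_mem' := by
    rintro _ ⟨y, c, hy, rfl⟩
    refine ⟨Ec (-c) (-y), -c, Ec_perp _ (by rw [frm5.neg_left, hy, neg_zero]), ?_⟩
    rw [← nv_conj hs M, M.κ_neg hs, mul_inv_rev]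
    congr 1
    exact inv_eq_of_mul_eq_one_right (by rw [← nv_add hs M, add_neg_cancel, nv_zero hs M])

theorem mem_Q7 {g : G} : g ∈ Q7 hs M ↔ ∃ y c, b5 y u05 = 0 ∧ g = M.κ y * nv hs M c := Iff.rfl

theorem κ_mem_Q7 {y : V5} (hy : b5 y u05 = 0) : M.κ y ∈ Q7 hs M :=
  ⟨y, 0, hy, by rw [nv_zero hs M, mul_one]⟩

theorem nv_mem_Q7 (c : V3) : nv hs M c ∈ Q7 hs M :=
  ⟨0, c, frm5.zero_left _, by rw [M.κ_zero hs, one_mul]⟩

theorem κnv_ind (y : V5) (c : V3) : M.Ind (M.κ y * nv hs M c) (Ec c) :=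
  (M.ind_κ hs y).comp (nv_ind hs M c)

theorem κnv_inj {y y' : V5} {c c' : V3} (h : M.κ y * nv hs M c = M.κ y' * nv hs M c') :
    y = y' ∧ c = c' := by
  have hc : c = c' := by
    refine sub_eq_zero.1 (Ec_faithful _ fun i => ?_)
    have e := (κnv_ind hs M y c).unique hs (h ▸ κnv_ind hs M y' c') (Ec (-c') (wlines i))
    rw [Ec_add, Ec_add, add_neg_cancel, Ec_zero, ← sub_eq_add_neg] at e
    exact e
  subst hc
  exact ⟨M.κ_inj hs (mul_right_cancel h), rfl⟩

theorem card_Q7 : Nat.card (Q7 hs M) = 3 ^ 7 := by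
  let f : (K3 × V3) × V3 → Q7 hs M := fun p =>
    ⟨M.κ (p.1.1 • u05 + wsum p.1.2) * nv hs M p.2, _, _, perp_param p.1, rfl⟩
  have hf : Function.Bijective f := by
    refine ⟨fun p q e => ?_, fun g => ?_⟩
    · obtain ⟨h1, h2⟩ := κnv_inj hs M (congrArg Subtype.val e)
      exact Prod.ext (perp_param_inj _ _ h1) h2
    · obtain ⟨y, c, hy, hg⟩ := g.2
      obtain ⟨t, c', rfl⟩ := perp_decomp hy
      exact ⟨((t, c'), c), Subtype.ext hg.symm⟩
  rw [← Nat.card_eq_of_bijective f hf]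
  simp [Nat.card_eq_fintype_card, K3, V3]

theorem Q7_isPGroup : IsPGroup 3 (Q7 hs M) := IsPGroup.of_card (card_Q7 hs M)

/-- The point is central. -/
theorem commute_u05 {g : G} (hg : g ∈ Q7 hs M) (t : K3) : Commute (M.κ (t • u05)) g := by
  obtain ⟨y, c, -, rfl⟩ := hg
  refine (M.torus_comm hs ⟨_, rfl⟩ ⟨_, rfl⟩).mul_right ?_
  rw [commute_iff_eq, nv_conj hs M, (Ec_iso c).smul, Ec_u05]

theorem comm_Q7 {g h : G} (hg : g ∈ Q7 hs M) (hh : h ∈ Q7 hs M) :
    ∃ t : K3, g * h * g⁻¹ * h⁻¹ = M.κ (t • u05) := by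
  obtain ⟨y, c, hy, rfl⟩ := hg
  obtain ⟨y', c', hy', rfl⟩ := hh
  obtain ⟨k, hk⟩ := Ec_shift c hy'
  obtain ⟨k', hk'⟩ := Ec_shift c' hy
  refine ⟨k - k', ?_⟩
  have e : M.κ y * nv hs M c * (M.κ y' * nv hs M c') =
      M.κ ((k - k') • u05) * (M.κ y' * nv hs M c' * (M.κ y * nv hs M c)) := by
    rw [κnv_mul hs M, κnv_mul hs M, ← mul_assoc, ← M.κ_add hs, hk, hk', add_comm c' c]
    congr 2
    rw [sub_smul]; abel
  rw [e]; group

theorem cube_Q7 {g : G} (hg : g ∈ Q7 hs M) : ∃ t : K3, g ^ 3 = M.κ (t • u05) := by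
  obtain ⟨y, c, hy, rfl⟩ := hg
  obtain ⟨k, hk⟩ := Ec_shift c hy
  refine ⟨k + k + k, ?_⟩
  rw [pow_succ, pow_two, κnv_mul hs M, κnv_mul hs M,
    show c + c + c = 0 by
      ext i; simp only [Pi.add_apply, Pi.zero_apply]; linear_combination (c i) * three_eq,
    nv_zero hs M, mul_one, ← Ec_add, hk, (Ec_iso c).add, (Ec_iso c).smul, Ec_u05, hk]
  congr 1
  ext i
  simp only [Pi.add_apply, Pi.smul_apply, smul_eq_mul]
  linear_combination (y i) * three_eq

/-- The elements commuting with the whole group are the multiples of the point. -/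
theorem central_Q7 {g : G} (hg : g ∈ Q7 hs M) (hc : ∀ h ∈ Q7 hs M, Commute g h) :
    g ∈ Subgroup.zpowers (M.κ u05) := by
  obtain ⟨y, c, hy, rfl⟩ := hg
  obtain rfl : c = 0 := Ec_faithful c fun i => by
    have h := hc _ (κ_mem_Q7 hs M (wlines_perp i))
    have e := κnv_ind hs M y c (wlines i)
    rw [h.eq, mul_inv_cancel_right] at e
    exact (M.κ_inj hs e).symm
  rw [nv_zero hs M, mul_one] at hc ⊢
  have hf : ∀ i, Ec (e3 i) y = y := fun i => by
    have h := hc _ (nv_mem_Q7 hs M (e3 i))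
    have e := nv_ind hs M (e3 i) y
    rw [← h.eq, mul_inv_cancel_right] at e
    exact (M.κ_inj hs e).symm
  rw [Ec_fixed hf]
  generalize y 1 = t
  rcases (by decide : ∀ t : K3, t = 0 ∨ t = 1 ∨ t = -1) t with rfl | rfl | rfl
  · rw [zero_smul, M.κ_zero hs]; exact one_mem _
  · rw [one_smul]; exact Subgroup.mem_zpowers _
  · rw [neg_one_smul, M.κ_neg hs]; exact inv_mem (Subgroup.mem_zpowers _)

theorem isExtraspecial_Q7 : Cfsg.IsExtraspecial 3 ↥(Q7 hs M) := by
  haveI : Fact (Nat.Prime 3) := ⟨Nat.prime_three⟩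
  have hu : M.κ u05 ∈ Q7 hs M := κ_mem_Q7 hs M b5_u05
  have hc : ∀ t : K3, (⟨M.κ (t • u05), κ_mem_Q7 hs M (by rw [frm5.smul, b5_u05, mul_zero])⟩ :
      ↥(Q7 hs M)) ∈ Subgroup.center ↥(Q7 hs M) := fun t =>
    Subgroup.mem_center_iff.2 fun g => Subtype.ext (commute_u05 hs M g.2 t).eq.symm
  have hZ : Subgroup.center ↥(Q7 hs M) = Subgroup.zpowers ⟨M.κ u05, hu⟩ := by
    refine le_antisymm (fun g hg => ?_) (Subgroup.zpowers_le.2 ?_)
    · have := central_Q7 hs M g.2 fun h hh =>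
        (congrArg Subtype.val (Subgroup.mem_center_iff.1 hg ⟨h, hh⟩)).symm
      obtain ⟨k, hk⟩ := this
      exact ⟨k, Subtype.ext (by simpa using hk)⟩
    · simpa only [one_smul] using hc 1
  have hcard : Nat.card (Subgroup.center ↥(Q7 hs M)) = 3 := by
    rw [hZ, Nat.card_zpowers, ← Subgroup.orderOf_coe, ← Nat.card_zpowers]
    exact M.card_point hs (rep5_ne_zero 2)
  refine H24.isExtraspecial_of (Q7_isPGroup hs M) hcard (fun e => ?_) (fun g h => ?_) (fun g => ?_)
  · rw [e, Subgroup.card_top, card_Q7 hs M] at hcard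
    norm_num at hcard
  · obtain ⟨t, ht⟩ := comm_Q7 hs M g.2 h.2
    have e : ⁅g, h⁆ = ⟨M.κ (t • u05), κ_mem_Q7 hs M (by rw [frm5.smul, b5_u05, mul_zero])⟩ :=
      Subtype.ext (by rw [commutatorElement_def]; exact ht)
    rw [e]; exact hc t
  · obtain ⟨t, ht⟩ := cube_Q7 hs M g.2
    have e : g ^ 3 = ⟨M.κ (t • u05), κ_mem_Q7 hs M (by rw [frm5.smul, b5_u05, mul_zero])⟩ :=
      Subtype.ext ((Subgroup.coe_pow _ _ _).trans ht)
    rw [e]; exact hc t

omit hs in
/-- The normaliser of the central point. -/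
abbrev norm3 : Subgroup G := Subgroup.normalizer (Subgroup.zpowers (M.κ u05) : Set G)

omit hs [Finite G] in
/-- The products of pairs of non-commuting fixed members. -/
def gens7 : Set G :=
  {g | ∃ p ∈ Fix D (M.κ u05), ∃ q ∈ Fix D (M.κ u05), ¬ Commute p q ∧ g = p * q}

theorem fix_line {y : G} (hy : y ∈ Fix D (M.κ u05)) : ∃ p, Lift M (linesW p) y :=
  let ⟨i, hi⟩ := fix_linesW hs M y (by rwa [rep5_two])
  ⟨_, hi⟩

theorem lift_fix {p : Fin 3 × K3} {m : G} (h : Lift M (linesW p) m) : m ∈ Fix D (M.κ u05) :=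
  ⟨h.1, h.commute_κ hs M (by rw [frm5.comm]; exact (linesW_norm p).2)⟩

theorem gens7_le : gens7 M ⊆ Q7 hs M := by
  rintro _ ⟨p, hp, q, hq, hpq, rfl⟩
  obtain ⟨⟨i, t⟩, hi⟩ := fix_line hs M hp
  obtain ⟨⟨i', t'⟩, hi'⟩ := fix_line hs M hq
  obtain rfl : i = i' := by
    by_contra h
    exact hpq (hi.commute_comp hs M (p := (i, t)) (q := (i', t')) h hi')
  obtain ⟨c, hc⟩ : ∃ c, c = (t' - t) • e3 i := ⟨_, rfl⟩
  have hI : M.Ind (p * q) (Ec c) := (hi.2.comp hi'.2).congr fun x => by rw [hc]; exact pair_map i t t' x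
  have hA : p * q * (nv hs M c)⁻¹ ∈ M.torus hs := by
    obtain ⟨g', hg', hgg, -⟩ := (nv_ind hs M c).inv hs
    exact M.mem_of_ind_id hs ((hI.comp hg').congr fun v => hgg v)
  obtain ⟨y, hy⟩ := hA
  refine ⟨y, c, ?_, by rw [hy]; group⟩
  obtain ⟨j, hji⟩ := comp_diff i
  have hperp : ∀ s, b5 y (linesW (j, s)) = 0 := by
    intro s
    have hm := lw_spec hs M (j, s)
    have h1 : Commute (p * q) (lw hs M (j, s)) :=
      (hi.commute_comp hs M (q := (j, s)) (Ne.symm hji) hm).mul_left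
        (hi'.commute_comp hs M (q := (j, s)) (Ne.symm hji) hm)
    have h2 : Commute (nv hs M c) (lw hs M (j, s)) := by
      rw [hc]
      have key : ∀ k, k ≠ i → (t' - t) • e3 i k = 0 := fun k hk => by simp [e3, hk]
      have hone : ∀ k, Commute (nE hs M k ^ ((((t' - t) • e3 i) k).val)) (lw hs M (j, s)) := fun k => by
        by_cases hk : k = i
        · subst hk; exact (nE_commute_lift hs M (p := (j, s)) hji hm).pow_left _
        · rw [show ((t' - t) • e3 i) k = 0 from key k hk, ZMod.val_zero, pow_zero]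
          exact Commute.one_left _
      exact ((hone 0).mul_left (hone 1)).mul_left (hone 2)
    have h3 : Commute (M.κ y) (lw hs M (j, s)) := hy ▸ h1.mul_left h2.inv_left
    have h4 := hm.2 y
    rw [← h3.eq, mul_inv_cancel_right] at h4
    have h5 := congrArg (fun x => b5 x (linesW (j, s))) (M.κ_inj hs h4)
    simp only [rf, frm5.add, frm5.smul, (linesW_norm _).1, mul_one, left_eq_add] at h5
    exact h5
  have h0 := hperp 0
  have h1 := hperp 1
  rw [(linesW_shift j).1] at h0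
  rw [(linesW_shift j).2, frm5.add_right, h0, zero_add] at h1
  exact h1

theorem le_gens7 : Q7 hs M ≤ Subgroup.closure (gens7 M) := by
  have hn : ∀ i, nE hs M i ∈ Subgroup.closure (gens7 M) := fun i => Subgroup.subset_closure
    ⟨_, lift_fix hs M (lw_spec hs M _), _, lift_fix hs M (lw_spec hs M _), nE_nc hs M i, rfl⟩
  have hr : ∀ i, M.κ (wlines i) ∈ Subgroup.closure (gens7 M) := by
    intro i
    have hnorm : b5 (wlines i) (wlines i) = 1 := (linesW_shift i).1 ▸ (linesW_norm (i, 0)).1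
    have hm := lw_spec hs M (i, 0)
    have hm' := hm.shift hs M (wlines i)
    have he : lw hs M (i, 0) = lw hs M (i, 0) := rfl
    have hl : Lift M (wlines i) (lw hs M (i, 0)) := (linesW_shift i).1 ▸ hm
    have hl' := hl.shift hs M (wlines i)
    have hneq : M.κ (wlines i) * lw hs M (i, 0) * (M.κ (wlines i))⁻¹ ≠ lw hs M (i, 0) := fun e => by
      have := hl.shift_injective hs M hnorm (t := 1) (t' := 0) (by
        rw [one_smul, zero_smul, M.κ_zero hs, one_mul, inv_one, mul_one, e])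
      exact one_ne_zero this
    have hmem : (M.κ (wlines i) * lw hs M (i, 0) * (M.κ (wlines i))⁻¹) * lw hs M (i, 0) ∈
        Subgroup.closure (gens7 M) :=
      Subgroup.subset_closure ⟨_, lift_fix hs M hm', _, lift_fix hs M hm,
        fun hc => hneq (hl'.eq_of_commute hs M hnorm hl hc), rfl⟩
    rw [hl.shift_self hs M hnorm, mul_assoc, H17.sq_one hs.cls.1 hm.1, mul_one, M.κ_neg hs] at hmem
    exact inv_mem_iff.1 hmem
  have hu : ∀ t : K3, M.κ (t • u05) ∈ Subgroup.closure (gens7 M) := by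
    obtain ⟨k, hk, e⟩ := Ec_e3_wlines 0
    have h := mul_mem (inv_mem (hr 0)) (mul_mem (mul_mem (hn 0) (hr 0)) (inv_mem (hn 0)))
    rw [nE_ind hs M 0, e, ← M.κ_neg hs, ← M.κ_add hs, neg_add_cancel_left] at h
    intro t
    obtain ⟨s, rfl⟩ : ∃ s, t = s * k := ⟨t * k, by
      rw [mul_assoc, (by decide : ∀ k : K3, k ≠ 0 → k * k = 1) k hk, mul_one]⟩
    rw [mul_smul]
    generalize k • u05 = v at h
    rcases (by decide : ∀ t : K3, t = 0 ∨ t = 1 ∨ t = -1) s with rfl | rfl | rfl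
    · rw [zero_smul, M.κ_zero hs]; exact one_mem _
    · rwa [one_smul]
    · rw [neg_one_smul, M.κ_neg hs]; exact inv_mem h
  rintro _ ⟨y, c, hy, rfl⟩
  obtain ⟨t, c', rfl⟩ := perp_decomp hy
  have hs' : ∀ (i : Fin 3) (s : K3), M.κ (s • wlines i) ∈ Subgroup.closure (gens7 M) := by
    intro i s
    rcases (by decide : ∀ t : K3, t = 0 ∨ t = 1 ∨ t = -1) s with rfl | rfl | rfl
    · rw [zero_smul, M.κ_zero hs]; exact one_mem _
    · rw [one_smul]; exact hr i
    · rw [neg_one_smul, M.κ_neg hs]; exact inv_mem (hr i)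
  simp only [M.κ_add hs, wsum, nv]
  exact mul_mem (mul_mem (hu t) (mul_mem (mul_mem (hs' 0 _) (hs' 1 _)) (hs' 2 _)))
    (mul_mem (mul_mem (pow_mem (hn 0) _) (pow_mem (hn 1) _)) (pow_mem (hn 2) _))

theorem Q7_eq : Q7 hs M = Subgroup.closure (gens7 M) :=
  le_antisymm (le_gens7 hs M) ((Subgroup.closure_le _).2 (gens7_le hs M))

/-- The extraspecial group is normal in the normaliser of the point. -/
theorem Q7_conj {n g : G} (hn : n ∈ norm3 M) (hg : g ∈ Q7 hs M) : n * g * n⁻¹ ∈ Q7 hs M := by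
  rw [Q7_eq hs M] at hg ⊢
  refine Subgroup.closure_induction (p := fun x _ => n * x * n⁻¹ ∈ Subgroup.closure (gens7 M))
    ?_ ?_ ?_ ?_ hg
  · rintro _ ⟨p, hp, q, hq, hpq, rfl⟩
    refine Subgroup.subset_closure ⟨n * p * n⁻¹, ?_, n * q * n⁻¹, ?_,
      fun h => hpq ((H17.commute_conj n).1 h), by group⟩
    · exact (fix_normalizer (H17.class_conj hs.cls) hn p).1 hp
    · exact (fix_normalizer (H17.class_conj hs.cls) hn q).1 hq
  · simp
  · intro x y _ _ hx hy
    rw [show n * (x * y) * n⁻¹ = (n * x * n⁻¹) * (n * y * n⁻¹) by group]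
    exact mul_mem hx hy
  · intro x _ hx
    rw [show n * x⁻¹ * n⁻¹ = (n * x * n⁻¹)⁻¹ by group]
    exact inv_mem hx

theorem Q7_le_norm3 : Q7 hs M ≤ norm3 M := fun g hg => by
  have h := commute_u05 hs M hg 1
  rw [one_smul] at h
  refine Subgroup.mem_normalizer_iff.2 fun x => ?_
  constructor
  · rintro ⟨k, rfl⟩
    exact ⟨k, ((h.zpow_left k).symm.eq ▸ (mul_inv_cancel_right _ g).symm)⟩
  · rintro ⟨k, hk⟩
    refine ⟨k, ?_⟩
    have e : x = g⁻¹ * (g * x * g⁻¹) * g := by group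
    rw [e, ← hk, mul_assoc, (h.zpow_left k).eq, inv_mul_cancel_left]

end Cfsg.Agent.H72.M22Three
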