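import Cfsg.Agent.H72.M22Three.Reps

/-!
Type M(22): the normaliser of a subgroup of order three of width four.
-/

set_option autoImplicit false

namespace Cfsg.Agent.H72.M22Three

open Cfsg QuadraticMap
open Cfsg.Agent
open Cfsg.Agent.H93.M22Three
open Cfsg.Agent.H37.M22Classes (Fix kk)

abbrev W4 := Fin 2 ⊕ Fin 2 → K3

/-- The isotropic vectors. -/
def hypP : Fin 2 → V5 := ![![1, 1, 1, 0, 0], ![1, 0, -1, 1, 0]]

/-- Their partners. -/
def hypQ : Fin 2 → V5 := ![![0, 1, 1, 1, 0], ![1, -1, 0, 1, 0]]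

/-- The hyperbolic coordinates into the space. -/
def toV (x : W4) : V5 :=
  x (.inl 0) • hypP 0 + x (.inl 1) • hypP 1 + x (.inr 0) • hypQ 0 + x (.inr 1) • hypQ 1

/-- The projection to the hyperbolic coordinates. -/
def prW (y : V5) : W4 := Sum.elim (fun i => -b5 y (hypQ i)) (fun i => -b5 y (hypP i))

theorem toV_facts : ∀ x : W4, prW (toV x) = x ∧ toV x 4 = 0 ∧
    b5 (toV x) (toV x) = Cfsg.quadFormPlus 2 K3 x := by decide +kernel

theorem decomp_dec : ∀ n < 243, toV (prW (dec5 n)) + dec5 n 4 • rep5 1 = dec5 n := by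
  decide +kernel

theorem decompW (y : V5) : toV (prW y) + y 4 • rep5 1 = y := by
  have h := decomp_dec (enc5 y) (enc5_lt y)
  rwa [dec5_enc5] at h

theorem toV_prW {y : V5} (h : y 4 = 0) : toV (prW y) = y := by
  conv_rhs => rw [← decompW y, h, zero_smul, add_zero]

theorem b5_rep1 (y : V5) : b5 y (rep5 1) = -y 4 := by simp [b5, rep5]

/-- The linear map of the coordinates. -/
def toVL : W4 →ₗ[K3] V5 where
  toFun := toV
  map_add' x y := by ext i; simp [toV]; ring
  map_smul' c x := by ext i; simp [toV]; ring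

theorem prW_add (y z : V5) : prW (y + z) = prW y + prW z := by
  ext i; rcases i with i | i <;> simp [prW, frm5.add] <;> ring

theorem prW_smul (c : K3) (y : V5) : prW (c • y) = c • prW y := by
  ext i; rcases i with i | i <;> simp [prW, frm5.smul]

/-- The form on the coordinates. -/
noncomputable def Q4 : QuadraticForm K3 W4 := Q5.comp toVL

theorem Q4_apply (x : W4) : Q4 x = b5 (toV x) (toV x) := Q5_apply _

theorem Q4_coe : ⇑Q4 = Cfsg.quadFormPlus 2 K3 :=
  funext fun x => (Q4_apply x).trans (toV_facts x).2.2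

/-- The sign change of the last coordinate. -/
def flip4 (y : V5) : V5 := ![y 0, y 1, y 2, y 3, -y 4]

theorem flip4_iso : IsIso b5 flip4 := by
  refine ⟨fun x y => ?_, fun c x => ?_, fun x y => ?_⟩
  · ext i; fin_cases i <;> simp [flip4] <;> ring
  · ext i; fin_cases i <;> simp [flip4]
  · simp [flip4, b5]

theorem axes_rf_dec : ∀ n < 243,
    rf b5 (frame4 0) (rf b5 (frame4 1) (rf b5 (frame4 2) (rf b5 (frame4 3) (dec5 n)))) =
      ![-(dec5 n) 0, -(dec5 n) 1, -(dec5 n) 2, -(dec5 n) 3, (dec5 n) 4] := by decide +kernel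

theorem axes_rf (y : V5) : rf b5 (frame4 0) (rf b5 (frame4 1) (rf b5 (frame4 2) (rf b5 (frame4 3) y))) =
    ![-y 0, -y 1, -y 2, -y 3, y 4] := by
  have h := axes_rf_dec (enc5 y) (enc5_lt y)
  rwa [dec5_enc5] at h

theorem toV_add (x y : W4) : toV (x + y) = toV x + toV y := toVL.map_add x y

theorem toV_smul (c : K3) (x : W4) : toV (c • x) = c • toV x := toVL.map_smul c x

variable {G : Type*} [Group G] [Finite G] {D : Set G} {a d : G}

theorem mem_normalizer_zpowers {x n : G} (h : n * x * n⁻¹ ∈ Subgroup.zpowers x) :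
    n ∈ Subgroup.normalizer (Subgroup.zpowers x : Set G) := by
  obtain ⟨T, hT⟩ : ∃ T, T = (Subgroup.zpowers x).map (MulAut.conj n).toMonoidHom := ⟨_, rfl⟩
  have hle : T ≤ Subgroup.zpowers x := by
    rw [hT, MonoidHom.map_zpowers, Subgroup.zpowers_le]; exact h
  have heq : T = Subgroup.zpowers x := Subgroup.eq_of_le_of_card_ge hle (by
    rw [hT, Subgroup.card_map_of_injective (f := (MulAut.conj n).toMonoidHom) (MulAut.conj n).injective])
  refine Subgroup.mem_normalizer_iff.2 fun y => ⟨fun hy => ?_, fun hy => ?_⟩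
  · rw [← heq, hT]; exact ⟨y, hy, rfl⟩
  · rw [← heq, hT] at hy
    obtain ⟨z, hz, e⟩ := hy
    rwa [← (MulAut.conj n).injective e]

variable (hs : Sys D) (M : Mdl D a d)
include hs

/-- The conjugate by `n` of the abelian group contains the images of the lines. -/
theorem conj_combination {n : G} {u u' : V5} (h : n * M.κ u * n⁻¹ ∈ M.torus hs)
    (h' : n * M.κ u' * n⁻¹ ∈ M.torus hs) (t : K3) :
    n * M.κ (u' + t • u) * n⁻¹ ∈ M.torus hs := by
  have hk : ∀ t : K3, n * M.κ (t • u) * n⁻¹ ∈ M.torus hs := by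
    intro t
    rcases (by decide : ∀ t : K3, t = 0 ∨ t = 1 ∨ t = -1) t with rfl | rfl | rfl
    · rw [zero_smul, M.κ_zero hs, mul_one, mul_inv_cancel]; exact one_mem _
    · rwa [one_smul]
    · rw [neg_one_smul, M.κ_neg hs, show n * (M.κ u)⁻¹ * n⁻¹ = (n * M.κ u * n⁻¹)⁻¹ by group]
      exact inv_mem h
  rw [M.κ_add hs, show n * (M.κ u' * M.κ (t • u)) * n⁻¹ =
    (n * M.κ u' * n⁻¹) * (n * M.κ (t • u) * n⁻¹) by group]
  exact mul_mem h' (hk t)

/-- The normaliser of the subgroup of width four normalises the abelian group. -/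
theorem normalizer_le : Subgroup.normalizer (Subgroup.zpowers (M.κ (rep5 1)) : Set G) ≤ M.nrm hs := by
  intro n hn
  have hline : ∀ i, n * M.κ (linesV i) * n⁻¹ ∈ M.torus hs :=
    map_line hs M linesV_lines (fix_linesV hs M) (by decide +kernel)
      (fix_normalizer (H17.class_conj hs.cls) hn)
  have hv : n * M.κ (rep5 1) * n⁻¹ ∈ M.torus hs :=
    Subgroup.zpowers_le.2 (show M.κ (rep5 1) ∈ M.torus hs from ⟨rep5 1, rfl⟩)
      ((Subgroup.mem_normalizer_iff.1 hn _).1 (Subgroup.mem_zpowers _))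
  have hall : ∀ u, n * M.κ u * n⁻¹ ∈ M.torus hs := by
    intro u
    have h0 : n * M.κ 0 * n⁻¹ ∈ M.torus hs := by
      rw [M.κ_zero hs, mul_one, mul_inv_cancel]; exact one_mem _
    have h := conj_combination hs M hv (conj_combination hs M (hline 3)
      (conj_combination hs M (hline 2) (conj_combination hs M (hline 1)
        (conj_combination hs M (hline 0) h0 (u 0)) (u 1)) (u 2)) (u 3)) (u 4)
    convert h using 4
    ext i
    fin_cases i <;> simp [linesV, rep5]
  have hle : (M.torus hs).map (MulAut.conj n).toMonoidHom ≤ M.torus hs := by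
    rintro _ ⟨_, ⟨u, rfl⟩, rfl⟩
    exact hall u
  have heq := Subgroup.eq_of_le_of_card_ge hle (by
    rw [Subgroup.card_map_of_injective (f := (MulAut.conj n).toMonoidHom) (MulAut.conj n).injective])
  refine Subgroup.mem_normalizer_iff.2 fun y => ⟨fun hy => heq.le ⟨y, hy, rfl⟩, fun hy => ?_⟩
  obtain ⟨z, hz, e⟩ := heq.ge hy
  rwa [← (MulAut.conj n).injective e]

/-- The sign change of the last coordinate is not induced. -/
theorem not_ind_flip {n : G} : ¬ M.Ind n flip4 := by
  intro h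
  choose m hm using fun i => exists_lift hs M (frame4_lines.norm i)
  refine M.not_ind_neg hs (n := m 0 * (m 1 * (m 2 * (m 3 * n))))
    (((hm 0).2.comp ((hm 1).2.comp ((hm 2).2.comp ((hm 3).2.comp h)))).congr fun y => ?_)
  show rf b5 (frame4 0) (rf b5 (frame4 1) (rf b5 (frame4 2) (rf b5 (frame4 3) (flip4 y)))) = -y
  rw [axes_rf]
  ext i
  fin_cases i <;> simp [flip4]

omit hs [Finite G] in
/-- The point of width four. -/
abbrev norm4 : Subgroup G := Subgroup.normalizer (Subgroup.zpowers (M.κ (rep5 1)) : Set G)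

/-- The induced map of an element of the normaliser of the point. -/
noncomputable def act4 (n : norm4 M) : V5 → V5 :=
  M.act5 hs ⟨(n : G), normalizer_le hs M n.2⟩

theorem act4_spec (n : norm4 M) : M.Ind (n : G) (act4 hs M n) :=
  M.act5_spec hs ⟨(n : G), normalizer_le hs M n.2⟩

theorem act4_perp (n : norm4 M) {y : V5} (hy : y 4 = 0) : act4 hs M n y 4 = 0 := by
  have hI := act4_spec hs M n
  obtain ⟨t, ht⟩ := M.mem_zpowers_κ hs ((hI (rep5 1)).symm ▸
    (Subgroup.mem_normalizer_iff.1 n.2 _).1 (Subgroup.mem_zpowers _))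
  have hne : t ≠ 0 := fun e => rep5_ne_zero 1 (hI.injective hs (by rw [ht, e, zero_smul, hI.zero hs]))
  have h := (hI.iso hs).form y (rep5 1)
  rw [ht, frm5.smul_right, b5_rep1, b5_rep1, hy, neg_zero] at h
  exact neg_eq_zero.1 ((mul_eq_zero.1 h).resolve_left hne)

/-- The action on the orthogonal space of the point. -/
noncomputable def orth4 (n : norm4 M) : H5.orth Q4 :=
  ⟨LinearEquiv.ofBijective
    ({ toFun := fun x => prW (act4 hs M n (toV x))
       map_add' := fun x y => by rw [toV_add, (act4_spec hs M n).add hs, prW_add]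
       map_smul' := fun c x => by rw [toV_smul, (act4_spec hs M n).smul hs, prW_smul]; rfl } :
      W4 →ₗ[K3] W4)
    (Finite.injective_iff_bijective.1 fun x y e => by
      have e' : prW (act4 hs M n (toV x)) = prW (act4 hs M n (toV y)) := e
      have h := congrArg toV e'
      rw [toV_prW (act4_perp hs M n (toV_facts x).2.1),
        toV_prW (act4_perp hs M n (toV_facts y).2.1)] at h
      have h' := congrArg prW ((act4_spec hs M n).injective hs h)
      rwa [(toV_facts x).1, (toV_facts y).1] at h'),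
   fun x => by
    show Q4 (prW (act4 hs M n (toV x))) = Q4 x
    rw [Q4_apply, Q4_apply, toV_prW (act4_perp hs M n (toV_facts x).2.1),
      ((act4_spec hs M n).iso hs).form]⟩

theorem orth4_apply (n : norm4 M) (x : W4) :
    (orth4 hs M n : W4 ≃ₗ[K3] W4) x = prW (act4 hs M n (toV x)) := rfl

/-- The homomorphism onto the isometry group of the orthogonal space. -/
noncomputable def toPlus : norm4 M →* Cfsg.isometryGroup K3 (Cfsg.quadFormPlus 2 K3) :=
  (H5.isoEquiv Q4 Q4_coe).symm.toMonoidHom.comp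
    (MonoidHom.mk' (orth4 hs M) fun n m => H5.orth_ext fun x => by
      rw [H5.orth_mul_apply, orth4_apply, orth4_apply, orth4_apply,
        toV_prW (act4_perp hs M m (toV_facts x).2.1)]
      exact congrArg prW ((act4_spec hs M (n * m)).unique hs
        ((act4_spec hs M n).comp (act4_spec hs M m)) _))

theorem toPlus_ker : (toPlus hs M).ker = (M.torus hs).subgroupOf (norm4 M) := by
  ext n
  rw [MonoidHom.mem_ker, Subgroup.mem_subgroupOf]
  simp only [toPlus, MonoidHom.comp_apply, MulEquiv.coe_toMonoidHom, MulEquiv.map_eq_one_iff,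
    MonoidHom.mk'_apply]
  have hI := act4_spec hs M n
  constructor
  · intro h
    have hfix : ∀ y : V5, y 4 = 0 → act4 hs M n y = y := by
      intro y hy
      have e := congrArg (fun k : H5.orth Q4 => (k : W4 ≃ₗ[K3] W4) (prW y)) h
      simp only [orth4_apply] at e
      have e2 := congrArg toV (e.trans (show ((1 : H5.orth Q4) : W4 ≃ₗ[K3] W4) (prW y) = prW y from rfl))
      rwa [toV_prW hy, toV_prW (act4_perp hs M n hy)] at e2
    obtain ⟨t, ht⟩ := M.mem_zpowers_κ hs ((hI (rep5 1)).symm ▸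
      (Subgroup.mem_normalizer_iff.1 n.2 _).1 (Subgroup.mem_zpowers _))
    have hform := (hI.iso hs).form (rep5 1) (rep5 1)
    rw [ht, frm5.smul, frm5.smul_right] at hform
    have hg : ∀ y, act4 hs M n y = toV (prW y) + (y 4 * t) • rep5 1 := fun y => by
      conv_lhs => rw [← decompW y, hI.add hs, hfix _ (toV_facts _).2.1, hI.smul hs, ht, smul_smul]
    rcases (by decide : ∀ t : K3, t = 0 ∨ t = 1 ∨ t = -1) t with rfl | rfl | rfl
    · simp [b5, rep5] at hform
    · exact M.mem_of_ind_id hs (hI.congr fun y => by rw [hg, mul_one, decompW])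
    · refine absurd (hI.congr fun y => ?_) (not_ind_flip hs M)
      have hy := decompW y
      rw [hg]
      ext i
      have hi := congrFun hy i
      have h4 := (toV_facts (prW y)).2.1
      fin_cases i <;> simp [flip4, rep5] at hi ⊢
      all_goals first
        | exact hi
        | exact h4
        | linear_combination h4
  · rintro ⟨u, hu⟩
    refine H5.orth_ext fun x => ?_
    rw [orth4_apply, hI.unique hs (g' := fun v => v) (hu ▸ M.ind_κ hs u), (toV_facts x).1]
    rfl

theorem toPlus_surjective : Function.Surjective (toPlus hs M) := by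
  intro k
  obtain ⟨h, rfl⟩ : ∃ h, (H5.isoEquiv Q4 Q4_coe).symm h = k :=
    ⟨_, MulEquiv.symm_apply_apply _ k⟩
  obtain ⟨f, hf⟩ : ∃ f : V5 → V5, ∀ y, f y = toV ((h : W4 ≃ₗ[K3] W4) (prW y)) + y 4 • rep5 1 :=
    ⟨_, fun _ => rfl⟩
  have hform : ∀ x x' : W4, b5 (toV ((h : W4 ≃ₗ[K3] W4) x)) (toV ((h : W4 ≃ₗ[K3] W4) x')) =
      b5 (toV x) (toV x') := by
    intro x x'
    have hq : ∀ z : W4, b5 (toV ((h : W4 ≃ₗ[K3] W4) z)) (toV ((h : W4 ≃ₗ[K3] W4) z)) =
        b5 (toV z) (toV z) := fun z => by rw [← Q4_apply, ← Q4_apply]; exact h.2 z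
    have := hq (x + x')
    simp only [map_add, toV_add, frm5.add, frm5.add_right, hq,
      frm5.comm (toV ((h : W4 ≃ₗ[K3] W4) x')) (toV ((h : W4 ≃ₗ[K3] W4) x)),
      frm5.comm (toV x') (toV x)] at this
    linear_combination 2 * this + (-(b5 (toV ((h : W4 ≃ₗ[K3] W4) x)) (toV ((h : W4 ≃ₗ[K3] W4) x'))) +
      b5 (toV x) (toV x')) * three_eq
  have hperp : ∀ x : W4, b5 (toV x) (rep5 1) = 0 := fun x => by
    rw [b5_rep1, (toV_facts x).2.1, neg_zero]
  have hfi : IsIso b5 f := by
    refine ⟨fun y z => ?_, fun c y => ?_, fun y z => ?_⟩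
    · rw [hf, hf, hf, prW_add, map_add, toV_add, Pi.add_apply, add_smul]; abel
    · rw [hf, hf, prW_smul, map_smul, toV_smul, Pi.smul_apply, smul_eq_mul, mul_smul, smul_add]
    · conv_rhs => rw [← decompW y, ← decompW z]
      simp only [hf, frm5.add, frm5.add_right, frm5.smul, frm5.smul_right, hperp,
        frm5.comm (rep5 1) (toV _), hform]
  have hfl := hfi.comp flip4_iso
  obtain ⟨g, hgi, hgr, hgp⟩ : ∃ (g : V5 → V5) (hg : IsIso b5 g),
      (H5.isoEquiv Q5 (f := ⇑Q5) rfl).symm (orthOf g hg) ∈ (M.toIso hs).range ∧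
      ((∀ y, g y = f y) ∨ ∀ y, g y = f (flip4 y)) := by
    by_cases hin : (H5.isoEquiv Q5 (f := ⇑Q5) rfl).symm (orthOf f hfi) ∈ (M.toIso hs).range
    · exact ⟨f, hfi, hin, Or.inl fun _ => rfl⟩
    refine ⟨_, hfl, ?_, Or.inr fun _ => rfl⟩
    have hidx : (M.toIso hs).range.index = 2 := by rw [M.toIso_range hs]; exact Mdl.refl_index
    have hfn : (H5.isoEquiv Q5 (f := ⇑Q5) rfl).symm (orthOf flip4 flip4_iso) ∉ (M.toIso hs).range := by
      rintro ⟨n, hn⟩
      refine not_ind_flip hs M (n := (n : G)) ((M.act5_spec hs n).congr fun v => ?_)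
      rw [← M.toIso_apply hs (M.act5_spec hs n), hn, MulEquiv.apply_symm_apply, orthOf_apply]
    rw [show orthOf _ hfl = orthOf f hfi * orthOf flip4 flip4_iso from H5.orth_ext fun v => rfl,
      map_mul, Subgroup.mul_mem_iff_of_index_two hidx]
    exact ⟨fun e => absurd e hin, fun e => absurd e hfn⟩
  obtain ⟨n, hn⟩ := hgr
  have hI : M.Ind (n : G) g := (M.act5_spec hs n).congr fun v => by
    rw [← M.toIso_apply hs (M.act5_spec hs n), hn, MulEquiv.apply_symm_apply, orthOf_apply]
  have hvv : g (rep5 1) = rep5 1 ∨ g (rep5 1) = -rep5 1 := by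
    have h0 : prW (rep5 1) = 0 := by decide +kernel
    have h4 : rep5 1 4 = 1 := by decide +kernel
    have hfl4 : flip4 (rep5 1) = -rep5 1 := by decide +kernel
    have hfv : f (rep5 1) = rep5 1 := by
      rw [hf, h0, map_zero, h4, one_smul, show toV 0 = 0 from toVL.map_zero, zero_add]
    rcases hgp with e | e <;> rw [e]
    · exact Or.inl hfv
    · rw [hfl4, hfi.neg, hfv]; exact Or.inr rfl
  have hnS : (n : G) ∈ norm4 M := mem_normalizer_zpowers (by
    rw [hI]
    rcases hvv with e | e <;> rw [e]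
    · exact Subgroup.mem_zpowers _
    · rw [M.κ_neg hs]; exact inv_mem (Subgroup.mem_zpowers _))
  refine ⟨⟨n, hnS⟩, ?_⟩
  simp only [toPlus, MonoidHom.comp_apply, MulEquiv.coe_toMonoidHom, MonoidHom.mk'_apply]
  refine congrArg _ (H5.orth_ext fun x => ?_)
  rw [orth4_apply, (act4_spec hs M ⟨n, hnS⟩).unique hs hI]
  have hx : g (toV x) = toV ((h : W4 ≃ₗ[K3] W4) x) := by
    have h4 := (toV_facts x).2.1
    have hfx : flip4 (toV x) = toV x := by
      ext i; fin_cases i <;> simp [flip4, h4]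
    rcases hgp with e | e <;> rw [e]
    all_goals first
      | rw [hf, h4, zero_smul, add_zero, (toV_facts x).1]
      | rw [hfx, hf, h4, zero_smul, add_zero, (toV_facts x).1]
  rw [hx, (toV_facts _).1]

/-- The normaliser modulo the abelian group. -/
theorem norm4_quotient : ∃ _ : ((M.torus hs).subgroupOf (norm4 M)).Normal,
    Nonempty (↥(norm4 M) ⧸ (M.torus hs).subgroupOf (norm4 M) ≃*
      Cfsg.isometryGroup K3 (Cfsg.quadFormPlus 2 K3)) := by
  haveI hN : ((M.torus hs).subgroupOf (norm4 M)).Normal :=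
    toPlus_ker hs M ▸ MonoidHom.normal_ker _
  exact ⟨hN, ⟨(QuotientGroup.quotientMulEquivOfEq (toPlus_ker hs M).symm).trans
    (QuotientGroup.quotientKerEquivOfSurjective _ (toPlus_surjective hs M))⟩⟩

omit hs in
/-- A subgroup of width four is conjugate to the point. -/
theorem width_four_form (hD : Cfsg.IsThreeTranspositionGroup D)
    (hprim : Cfsg.IsPrimitiveUnderConj D) (h22 : Cfsg.IsOfTypeM22 G D) {X : Subgroup G}
    (hX : Nat.card X = 3)
    (hw : Cfsg.commutingWidth (D ∩ (Subgroup.centralizer (X : Set G) : Set G)) = 4) :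
    ∃ (_ : Sys D) (a d : G) (M : Mdl D a d), X = Subgroup.zpowers (M.κ (rep5 1)) := by
  haveI : Fact (Nat.Prime 3) := ⟨Nat.prime_three⟩
  have hs' := exists_sys hD hprim h22
  obtain ⟨-, d₁, hd₁, c₁, hc₁, hdc, -⟩ := id h22
  obtain ⟨M⟩ := exists_mdl hs' hd₁ hc₁ hdc
  obtain ⟨x, hx, hx1⟩ := X.bot_or_exists_ne_one.resolve_left (fun e => by
    rw [e, Subgroup.card_bot] at hX; norm_num at hX)
  have hx3 : orderOf x = 3 := orderOf_eq_prime (by
    have h := pow_card_eq_one' (G := X) (x := ⟨x, hx⟩)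
    rw [hX] at h
    exact congrArg Subtype.val h) hx1
  have hXe : Subgroup.zpowers x = X := Subgroup.eq_of_le_of_card_ge (Subgroup.zpowers_le.2 hx)
    (by rw [hX, Nat.card_zpowers, hx3])
  have hne : (Fix D x).Nonempty := by
    by_contra h
    rw [Set.not_nonempty_iff_eq_empty] at h
    rw [← hXe, fix_eq_inter, h, Cfsg.commutingWidth] at hw
    have : (4 : ℕ) ≤ 0 := hw.ge.trans (csSup_le ⟨0, ∅, subset_rfl, Set.finite_empty, by simp, by simp⟩ (by
      rintro n ⟨E, hE, -, -, rfl⟩
      rw [Set.subset_empty_iff.1 hE, Set.ncard_empty]))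
    omega
  obtain ⟨m, hm, hxm⟩ := hne
  obtain ⟨i, g, hg⟩ := (rep_classes hs' M).1 x hx3 ⟨m, hm, hxm⟩
  have hwi := (rep_classes hs' M).2 i
  rw [← hg, H37.M22Classes.commutingWidth_conj (H17.class_conj hs'.cls), hXe, hw] at hwi
  obtain rfl : i = 1 := (by decide : ∀ i : Fin 3, 4 = kk i → i = 1) i hwi
  refine ⟨hs', _, _, M.conj hs' g⁻¹, ?_⟩
  rw [M.conj_κ hs' g⁻¹, ← Mdl.map_point, ← hg, ← hXe, Subgroup.map_map]
  symm
  convert Subgroup.map_id (Subgroup.zpowers x) using 2
  ext y
  simp [mul_assoc]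

end Cfsg.Agent.H72.M22Three
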