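import Cfsg.Agent.H72.M22Three.Three
import Cfsg.Agent.H72.M22Three.WidthFour
import Cfsg.Agent.H73.CharPLocal
import Cfsg.Agent.H58.ExtraspecialCongr

/-!
Type M(22): the generalized Fitting subgroup of the normaliser of a central subgroup of order three.
-/

set_option autoImplicit false

namespace Cfsg.Agent.H72.M22Three

open Cfsg
open Cfsg.Agent
open Cfsg.Agent.H93.M22Three

/-- The pure part of the second line. -/
def y2 : V4 := ![1, -1, 0, 1]

theorem y2_spec : b4 y2 y2 = 1 ∧ cs 0 y2 = wlines 1 ∧ wlines 0 = ax ∧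
    u05 = cs 0 ![1, 1, 1, 0] := by decide +kernel

/-- The square of the difference of a Siegel transformation and the identity. -/
theorem E6_sum {y : V4} (hy : b4 y y = 1) (x : V6) :
    x + E6 y x + E6 y (E6 y x) = (-b6 x e6) • e6 := by
  rw [E6_add]
  simp only [E6, eich, emb_add, frm6.add, frm6.add_right, b6_emb, hy]
  match_scalars <;> first
    | ring1
    | linear_combination three_eq
    | linear_combination (b6 x e6) * three_eq
    | linear_combination (2 * b6 x e6) * three_eq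
    | linear_combination (-(b6 x (emb y))) * three_eq
    | linear_combination (2 * b6 x e6 - b6 x (emb y)) * three_eq

theorem eich_rescale (t k : K3) (z : V4) (x : V6) :
    eich b6 (t • e6) (emb z + k • e6) x = E6 (t • z) x := by
  simp only [E6, eich, emb_smul, frm6.add, frm6.add_right, frm6.smul, frm6.smul_right, b6_emb_e6,
    b6_e6, frm6.comm e6 (emb z)]
  match_scalars <;> ring

theorem perp_e6 {x : V6} (h : b6 x e6 = 0) : x = emb (zc x) + (-(x 0 + x 1)) • e6 := by
  conv_lhs => rw [decomp x]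
  have h' : x 2 + (x 0 + x 1) = 0 := by
    simp [b6, e6] at h
    linear_combination h
  rw [h', zero_smul, zero_add]

theorem hyper_dec : ∀ n < 243,
    (∀ i, b5 (dec5 n) (wlines i) = b5 ![0, 1, 0, 0, 0] (wlines i)) →
      b5 (dec5 n) u05 = b5 ![0, 1, 0, 0, 0] u05 → b5 (dec5 n) (dec5 n) = 1 →
        dec5 n = ![0, 1, 0, 0, 0] := by decide +kernel

/-- An isometry fixing the orthogonal space of the isotropic vector is the identity. -/
theorem eq_id_of_fix_perp {g : V5 → V5} (hg : IsIso b5 g) (hu : g u05 = u05)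
    (hr : ∀ i, g (wlines i) = wlines i) (x : V5) : g x = x := by
  obtain ⟨e, he⟩ : ∃ e : V5, e = ![0, 1, 0, 0, 0] := ⟨_, rfl⟩
  have hge : g e = e := by
    have h := hyper_dec (enc5 (g e)) (enc5_lt _)
    rw [dec5_enc5, ← he] at h
    refine h (fun i => ?_) ?_ ?_
    · conv_lhs => rw [← hr i]
      rw [hg.form]
    · conv_lhs => rw [← hu]
      rw [hg.form]
    · rw [hg.form, he]; decide
  have heu : b5 e u05 = 1 := by rw [he]; decide
  have hp : b5 (x - b5 x u05 • e) u05 = 0 := by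
    rw [sub_eq_add_neg, frm5.add, frm5.neg_left, frm5.smul, heu, mul_one, add_neg_cancel]
  obtain ⟨t, c, hc⟩ := perp_decomp hp
  have hx : x = b5 x u05 • e + (t • u05 + wsum c) := by rw [← hc]; abel
  rw [hx]
  simp only [hg.add, hg.smul, wsum, hge, hu, hr]

theorem U5_u05 : ∀ p : V3 × K3, U5 p u05 = u05 := by decide +kernel

theorem U5_keep_dec : ∀ p : V3 × K3,
    (∀ i, ∃ s, U5 p (linesW (i, 0)) = linesW (i, s) ∨ U5 p (linesW (i, 0)) = -linesW (i, s)) →
      p.2 = 0 ∧ cvec p.1 = -wsum ![-p.1 0, p.1 1 + p.1 2, p.1 2 - p.1 1] := by decide +kernel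

theorem k3_cases : ∀ t : K3, t = 0 ∨ t = 1 ∨ t = -1 := by decide

theorem k3_sq : ∀ t : K3, t ≠ 0 → t * t = 1 := by decide

/-- Generators of the Sylow subgroup of the orthogonal group. -/
def sylGens : List (V3 × K3) := [(![1, 0, 0], 0), (![0, 1, 0], 0), (![0, 0, 1], 0), (0, 1)]

set_option synthInstance.maxSize 1000 in
set_option synthInstance.maxHeartbeats 400000 in
theorem U5_fixed_dec : ∀ n < 243, (∀ p ∈ sylGens, U5 p (dec5 n) = dec5 n) →
    dec5 n = dec5 n 1 • u05 := by decide +kernel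

/-- A word exchanging the two isotropic vectors. -/
def swapW : List V6 := [![1, 1, 0, 0, 1, 1], ![0, 0, 1, 1, 2, 1], ![0, 0, 1, 1, 1, 2]]

theorem swapW_valid : Valid swapW := by
  intro r hr
  simp only [swapW, List.mem_cons, List.not_mem_nil, or_false] at hr
  rcases hr with rfl | rfl | rfl <;> decide

theorem swapW_E6 : ∀ x : V6, act swapW (E6 ![1, 1, 1, 0] x) = E6 (-![1, 1, 1, 0]) (act swapW x) := by
  decide +kernel

theorem swapW_moves :
    act swapW (E6 ![1, 0, 0, 0] (act swapW.reverse e6)) ≠ e6 ∧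
    act swapW (E6 ![1, 0, 0, 0] (act swapW.reverse e6)) ≠ -e6 := by decide +kernel

variable {G : Type*} [Group G] [Finite G] {D : Set G} {a d : G} (hs : Sys D) (M : Mdl D a d)
include hs

/-- An element centralising the product and one pure element of norm one normalises the abelian
group. -/
theorem mem_nrm_of_commute {n : G} {y : V4} (hy : b4 y y = 1) (h1 : Commute n (a * d))
    (h2 : Commute n (M.ι y)) : n ∈ M.nrm hs := by
  obtain ⟨i, l, hl, rfl⟩ := M.exists_of_commute hs h1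
  have hpi : Commute ((a * d) ^ i.val) (M.ι y) := (M.commute_left (M.ι_mem y)).2.2.pow_left _
  have hly : Commute l (M.ι y) := by
    have h := hpi.inv_left.mul_left h2
    rwa [inv_mul_cancel_left] at h
  obtain ⟨w, hw, rfl⟩ := M.exists_word hs hl
  have hW := act_iso hw
  have hWr := act_iso (valid_reverse hw)
  have hinv : ∀ x, act w (act w.reverse x) = x := fun x => by
    simpa using act_reverse (valid_reverse hw) x
  have hk := sign_global (((E6_iso (-y)).comp hW).comp ((E6_iso y).comp hWr)) fun u hu => by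
    show E6 (-y) (act w (E6 y (act w.reverse u))) = u ∨ E6 (-y) (act w (E6 y (act w.reverse u))) = -u
    have hu0 : b6 (act w.reverse u) (act w.reverse u) = 1 := by rw [hWr.form, hu]
    have hu1 : b6 (E6 y (act w.reverse u)) (E6 y (act w.reverse u)) = 1 := by
      rw [(E6_iso y).form, hu0]
    have h := M.inj (E6 y u) (act w (E6 y (act w.reverse u))) (by rw [(E6_iso y).form, hu])
      (by rw [hW.form, hu1]) (by
        rw [← M.ι_conj hs y hu, ← M.ev_conj hs hw hu1, ← M.ι_conj hs y hu0]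
        conv_lhs => rw [← hinv u, ← M.ev_conj hs hw hu0]
        calc M.ι y * (M.ev w * M.τ (act w.reverse u) * (M.ev w)⁻¹) * (M.ι y)⁻¹
            = (M.ι y * M.ev w) * M.τ (act w.reverse u) * (M.ι y * M.ev w)⁻¹ := by group
          _ = (M.ev w * M.ι y) * M.τ (act w.reverse u) * (M.ev w * M.ι y)⁻¹ := by rw [hly.eq]
          _ = _ := by group)
    rcases h with e | e <;> rw [e]
    · exact Or.inl (by rw [E6_add, neg_add_cancel, E6_zero])
    · exact Or.inr (by rw [(E6_iso _).neg, E6_add, neg_add_cancel, E6_zero])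
  have hcomm : ∀ x, act w (E6 y x) = E6 y (act w x) := by
    have h3 : y + (y + y) = 0 := by
      ext j; simp only [Pi.add_apply, Pi.zero_apply]; linear_combination y j * three_eq
    rcases hk with hk | hk
    · intro x
      have h := hk (act w x)
      simp only [act_reverse hw] at h
      conv_rhs => rw [← h, E6_add, add_neg_cancel, E6_zero]
    · exfalso
      have hg : ∀ x, act w (E6 y x) = -E6 y (act w x) := fun x => by
        have h := hk (act w x)
        simp only [act_reverse hw] at h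
        conv_rhs => rw [← neg_neg (act w x), ← h, (E6_iso y).neg, E6_add, add_neg_cancel, E6_zero]
        rw [neg_neg]
      have h4 : act w o6 = -act w o6 := by
        conv_lhs => rw [← E6_zero o6, ← h3, ← E6_add, ← E6_add]
        rw [hg, hg, hg, (E6_iso _).neg, (E6_iso _).neg, (E6_iso _).neg, neg_neg, E6_add, E6_add,
          add_assoc, h3, E6_zero]
      rw [← hW.neg] at h4
      have h5 := congrArg (act w.reverse) h4
      rw [act_reverse hw, act_reverse hw] at h5
      exact absurd h5 (by decide)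
  obtain ⟨t, ht⟩ : ∃ t, act w e6 = t • e6 := by
    refine ⟨b6 (act w o6) e6, ?_⟩
    have h := congrArg (act w) (E6_sum hy o6)
    rw [hW.add, hW.add, hcomm, hcomm, hcomm, E6_sum hy, hW.smul, b6_o6_e6, neg_smul, neg_smul,
      one_smul, neg_inj] at h
    exact h.symm
  have ht0 : t ≠ 0 := fun e => by
    rw [e, zero_smul] at ht
    have h := congrArg (act w.reverse) ht
    rw [act_reverse hw, hWr.zero] at h
    exact absurd h (by decide)
  have hσ : ∀ z, ∃ z', M.ev w * M.ι z * (M.ev w)⁻¹ = M.ι z' := by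
    intro z
    have hp : b6 (act w (emb z)) e6 = 0 := by
      have h := hW.form (emb z) e6
      rw [ht, frm6.smul_right, b6_emb_e6] at h
      exact (mul_eq_zero.1 h).resolve_left ht0
    refine ⟨t • zc (act w (emb z)), M.eq_of_conj
      (mul_mem (mul_mem (M.ev_mem hw) (M.ι_mem z)) (inv_mem (M.ev_mem hw))) (M.ι_mem _) fun u hu => ?_⟩
    have hu0 : b6 (act w.reverse u) (act w.reverse u) = 1 := by rw [hWr.form, hu]
    have hu1 : b6 (E6 z (act w.reverse u)) (E6 z (act w.reverse u)) = 1 := by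
      rw [(E6_iso z).form, hu0]
    rw [M.ι_conj hs _ hu]
    conv_lhs => rw [← hinv u, ← M.ev_conj hs hw hu0]
    rw [show M.ev w * M.ι z * (M.ev w)⁻¹ * (M.ev w * M.τ (act w.reverse u) * (M.ev w)⁻¹) *
        (M.ev w * M.ι z * (M.ev w)⁻¹)⁻¹ =
        M.ev w * (M.ι z * M.τ (act w.reverse u) * (M.ι z)⁻¹) * (M.ev w)⁻¹ by group,
      M.ι_conj hs z hu0, M.ev_conj hs hw hu1]
    refine congrArg M.τ ?_
    rw [E6, hW.map_eich, ht, hinv]
    conv_lhs => rw [perp_e6 hp]
    exact eich_rescale _ _ _ _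
  choose σ hσ' using hσ
  refine Mdl.Ind.mem_normalizer hs (g := fun v => cs (v 0) (σ (tl v))) fun v => ?_
  rw [M.κ_cs, ← hσ', Mdl.κ]
  have hc := ((M.commute_left (M.ev_mem hw)).2.2.pow_left i.val).symm
  have hci := ((M.commute_left (M.ι_mem (tl v))).2.2.pow_left i.val)
  have hp := Commute.pow_pow_self (a * d) i.val (v 0).val
  have hc0 := ((M.commute_left (M.ev_mem hw)).2.2.pow_left (v 0).val).symm
  calc (a * d) ^ i.val * M.ev w * ((a * d) ^ (v 0).val * M.ι (tl v)) * ((a * d) ^ i.val * M.ev w)⁻¹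
      = (a * d) ^ i.val * (M.ev w * (a * d) ^ (v 0).val) * M.ι (tl v) * (M.ev w)⁻¹ *
          ((a * d) ^ i.val)⁻¹ := by group
    _ = (a * d) ^ i.val * ((a * d) ^ (v 0).val * (M.ev w * M.ι (tl v) * (M.ev w)⁻¹)) *
          ((a * d) ^ i.val)⁻¹ := by rw [hc0.eq]; group
    _ = _ := by
      rw [hσ']
      have h3 : Commute ((a * d) ^ i.val) ((a * d) ^ (v 0).val * M.ι (σ (tl v))) :=
        hp.mul_right ((M.commute_left (M.ι_mem _)).2.2.pow_left _)
      rw [h3.eq, mul_inv_cancel_right]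

/-- The extraspecial group contains its centraliser. -/
theorem centralizer_Q7 {n : G} (hn : ∀ g ∈ Q7 hs M, Commute n g) : n ∈ Q7 hs M := by
  obtain ⟨hy, hcs, hax, -⟩ := y2_spec
  have hnA : n ∈ M.nrm hs := by
    refine mem_nrm_of_commute hs M hy ?_ ?_
    · have := hn _ (κ_mem_Q7 hs M (wlines_perp 0))
      rwa [hax, M.κ_ax' hs] at this
    · have := hn _ (κ_mem_Q7 hs M (wlines_perp 1))
      rwa [← hcs, M.κ_pure hs] at this
  obtain ⟨g, hg⟩ := M.exists_ind hs hnA
  have hfix : ∀ v, b5 v u05 = 0 → g v = v := fun v hv => by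
    refine M.κ_inj hs ?_
    rw [← hg, (hn _ (κ_mem_Q7 hs M hv)).eq, mul_inv_cancel_right]
  have hid := eq_id_of_fix_perp (hg.iso hs) (hfix _ b5_u05) fun i => hfix _ (wlines_perp i)
  obtain ⟨y, rfl⟩ := M.mem_of_ind_id hs (hg.congr hid)
  refine κ_mem_Q7 hs M ?_
  have hy' := Ec_fixed (y := y) fun i => by
    have h := hn _ (nv_mem_Q7 hs M (e3 i))
    have e := nv_ind hs M (e3 i) y
    rw [← h.eq, mul_inv_cancel_right] at e
    exact (M.κ_inj hs e).symm
  rw [hy', frm5.smul, b5_u05, mul_zero]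

theorem P0_le_norm3 : M.P0 hs ≤ norm3 M := by
  rintro g ⟨p, hp⟩
  refine Subgroup.mem_normalizer_iff.2 fun x => ?_
  have h := hp u05
  rw [U5_u05] at h
  have hc : Commute g (M.κ u05) := mul_inv_eq_iff_eq_mul.1 h
  constructor
  · rintro ⟨k, rfl⟩
    exact ⟨k, ((hc.zpow_right k).eq ▸ (mul_inv_cancel_right _ g).symm)⟩
  · rintro ⟨k, hk⟩
    refine ⟨k, ?_⟩
    have e : x = g⁻¹ * (g * x * g⁻¹) * g := by group
    rw [e, ← hk, mul_assoc, ← (hc.zpow_right k).eq, inv_mul_cancel_left]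

/-- The normaliser of the point does not normalise the abelian group. -/
theorem norm3_not_le : ∃ l ∈ norm3 M, l ∉ M.nrm hs := by
  have hv := swapW_valid
  have hW := act_iso hv
  have hWr := act_iso (valid_reverse hv)
  have hinv : ∀ x, act swapW (act swapW.reverse x) = x := fun x => by
    simpa using act_reverse (valid_reverse hv) x
  have hconj : ∀ (z : V4) {u : V6}, b6 u u = 1 →
      M.ev swapW * M.ι z * (M.ev swapW)⁻¹ * M.τ u * (M.ev swapW * M.ι z * (M.ev swapW)⁻¹)⁻¹ =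
        M.τ (act swapW (E6 z (act swapW.reverse u))) := by
    intro z u hu
    have hu0 : b6 (act swapW.reverse u) (act swapW.reverse u) = 1 := by rw [hWr.form, hu]
    conv_lhs => arg 1; arg 2; rw [← hinv u, ← M.ev_conj hs hv hu0]
    rw [show M.ev swapW * M.ι z * (M.ev swapW)⁻¹ * (M.ev swapW * M.τ (act swapW.reverse u) * (M.ev swapW)⁻¹) *
        (M.ev swapW * M.ι z * (M.ev swapW)⁻¹)⁻¹ =
        M.ev swapW * (M.ι z * M.τ (act swapW.reverse u) * (M.ι z)⁻¹) * (M.ev swapW)⁻¹ by group,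
      M.ι_conj hs z hu0, M.ev_conj hs hv (by rw [(E6_iso z).form, hu0])]
  have hmem : ∀ z, M.ev swapW * M.ι z * (M.ev swapW)⁻¹ ∈ Subgroup.closure (H17.common D a d) :=
    fun z => mul_mem (mul_mem (M.ev_mem hv) (M.ι_mem z)) (inv_mem (M.ev_mem hv))
  refine ⟨M.ev swapW, ?_, fun hA => ?_⟩
  · have he : M.ev swapW * M.ι ![1, 1, 1, 0] * (M.ev swapW)⁻¹ = M.ι (-![1, 1, 1, 0]) :=
      M.eq_of_conj (hmem _) (M.ι_mem _) fun u hu => by
        rw [hconj _ hu, M.ι_conj hs _ hu, swapW_E6, hinv]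
    refine mem_normalizer_zpowers ?_
    rw [y2_spec.2.2.2, M.κ_pure hs, he, ← M.ι_inv hs]
    exact inv_mem (Subgroup.mem_zpowers _)
  · obtain ⟨g, hg⟩ := M.exists_ind hs hA
    obtain ⟨z, hz⟩ : ∃ z, M.ev swapW * M.ι ![1, 0, 0, 0] * (M.ev swapW)⁻¹ = M.ι z := by
      refine ⟨tl (g (cs 0 ![1, 0, 0, 0])), ?_⟩
      have h1 : M.ev swapW * M.ι ![1, 0, 0, 0] * (M.ev swapW)⁻¹ = M.κ (g (cs 0 ![1, 0, 0, 0])) := by
        rw [← hg, M.κ_pure hs]
      have h0 := M.zero_of_mem hs (h1 ▸ hmem _)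
      rw [h1]
      conv_lhs => rw [← cs_tl (g (cs 0 ![1, 0, 0, 0])), h0, M.κ_pure hs]
    have hk := sign_global ((E6_iso (-z)).comp (hW.comp ((E6_iso ![1, 0, 0, 0]).comp hWr))) fun u hu => by
      have h := hconj ![1, 0, 0, 0] hu
      rw [hz, M.ι_conj hs z hu] at h
      have hu0 : b6 (act swapW.reverse u) (act swapW.reverse u) = 1 := by rw [hWr.form, hu]
      show E6 (-z) _ = u ∨ E6 (-z) _ = -u
      rcases M.inj _ _ (by rw [(E6_iso z).form, hu]) (by rw [hW.form, (E6_iso _).form, hu0]) h with e | e <;>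
        rw [e]
      · exact Or.inl (by rw [E6_add, neg_add_cancel, E6_zero])
      · exact Or.inr (by rw [(E6_iso _).neg, E6_add, neg_add_cancel, E6_zero])
    have hmove := swapW_moves
    rcases hk with hk | hk
    · have h := congrArg (E6 z) (hk e6)
      simp only [E6_add, add_neg_cancel, E6_zero, E6_e6] at h
      exact hmove.1 h
    · have h := congrArg (E6 z) (hk e6)
      simp only [E6_add, add_neg_cancel, E6_zero, E6_e6, (E6_iso z).neg] at h
      exact hmove.2 h

/-- A normal three-subgroup of the normaliser of the point lies in the extraspecial group. -/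
theorem core_le {R : Subgroup G} (hR : R ≤ norm3 M) (hp : IsPGroup 3 R)
    (hn : norm3 M ≤ Subgroup.normalizer (R : Set G)) (hQ : Q7 hs M ≤ R) : R ≤ Q7 hs M := by
  haveI : Fact (Nat.Prime 3) := ⟨Nat.prime_three⟩
  have hRP : R ≤ M.P0 hs := by
    have h3 : IsPGroup 3 (M.P0 hs) := IsPGroup.of_card (M.card_P0 hs)
    have hsup := hp.to_sup_of_normal_left' h3 ((P0_le_norm3 hs M).trans hn)
    have := (M.sylow0 hs).is_maximal' hsup (show M.P0 hs ≤ _ from le_sup_right)
    exact le_sup_left.trans this.le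
  intro r hr
  by_contra hrQ
  obtain ⟨p, hp5⟩ := hRP hr
  have hkeep : ∀ i, ∃ s, U5 p (linesW (i, 0)) = linesW (i, s) ∨ U5 p (linesW (i, 0)) = -linesW (i, s) := by
    intro i
    have hm := lw_spec hs M (i, 0)
    have hmf := lift_fix hs M hm
    have hrf : r * lw hs M (i, 0) * r⁻¹ ∈ H37.M22Classes.Fix D (M.κ u05) :=
      (fix_normalizer (H17.class_conj hs.cls) (hR hr) _).1 hmf
    obtain ⟨⟨j, s⟩, hj⟩ := fix_line hs M hrf
    obtain rfl : j = i := by
      by_contra hne
      have hc := hj.commute_comp hs M (p := (j, s)) (q := (i, 0)) hne hm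
      have hmN : lw hs M (i, 0) ∈ norm3 M := mem_normalizer_zpowers (by
        rw [← hmf.2.eq, mul_inv_cancel_right]; exact Subgroup.mem_zpowers _)
      have hx : r * lw hs M (i, 0) * r⁻¹ * lw hs M (i, 0) ∈ R := by
        have h := (Subgroup.mem_normalizer_iff.1 (hn hmN) r⁻¹).1 (inv_mem hr)
        rw [H17.inv_self hs.cls.1 hm.1] at h
        have := mul_mem hr h
        simpa only [mul_assoc] using this
      have h2 : (r * lw hs M (i, 0) * r⁻¹ * lw hs M (i, 0)) ^ 2 = 1 := by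
        rw [hc.mul_pow, pow_two, pow_two, H17.sq_one hs.cls.1 hj.1, H17.sq_one hs.cls.1 hm.1, one_mul]
      have h1 : r * lw hs M (i, 0) * r⁻¹ * lw hs M (i, 0) = 1 := by
        have hd : orderOf (⟨_, hx⟩ : R) ∣ 2 := orderOf_dvd_of_pow_eq_one (Subtype.ext h2)
        obtain ⟨k, hk⟩ := IsPGroup.iff_orderOf.1 hp ⟨_, hx⟩
        rcases (Nat.dvd_prime Nat.prime_two).1 hd with e | e
        · exact congrArg Subtype.val (orderOf_eq_one_iff.1 e)
        · rw [hk] at e
          have : 2 ∣ 3 ^ k := e ▸ dvd_rfl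
          exact absurd ((Nat.prime_dvd_prime_iff_eq Nat.prime_two Nat.prime_three).1
            (Nat.prime_two.dvd_of_dvd_pow this)) (by norm_num)
      have heq := eq_inv_of_mul_eq_one_left h1
      rw [H17.inv_self hs.cls.1 hm.1] at heq
      rw [heq] at hj
      exact hne (congrArg Prod.fst (linesW_sep _ _ (hm.line_eq hs M (linesW_norm _).1 hj)))
    refine ⟨s, ?_⟩
    obtain ⟨g', hg', hgg, -⟩ := hp5.inv hs
    have hI : Lift M (U5 p (linesW (j, 0))) (r * lw hs M (j, 0) * r⁻¹) :=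
      ⟨hrf.1, ((hp5.comp hm.2).comp hg').congr fun x => by rw [(U5_iso p).map_rf, hgg]⟩
    exact hj.line_eq hs M (linesW_norm _).1 hI
  obtain ⟨hp2, hc⟩ := U5_keep_dec p hkeep
  obtain ⟨c, hc'⟩ : ∃ c : V3, c = ![-p.1 0, p.1 1 + p.1 2, p.1 2 - p.1 1] := ⟨_, rfl⟩
  have hI : M.Ind r (Ec c) := hp5.congr fun x => by
    rw [U5, hp2, show S5 0 x = x by simp [S5, eich_zero frm5], R5, hc, ← hc']; rfl
  obtain ⟨g', hg', hgg, -⟩ := (nv_ind hs M c).inv hs
  obtain ⟨y, hy⟩ := M.mem_of_ind_id hs ((hI.comp hg').congr fun v => hgg v)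
  have hr' : r = M.κ y * nv hs M c := by rw [hy]; group
  by_cases hperp : b5 y u05 = 0
  · exact hrQ ⟨y, c, hperp, hr'⟩
  have hκy : M.κ y ∈ R := by
    have := mul_mem hr (inv_mem (hQ (nv_mem_Q7 hs M c)))
    rwa [hr', mul_inv_cancel_right] at this
  have hA : M.torus hs ≤ R := by
    rintro _ ⟨x, rfl⟩
    obtain ⟨t, ht⟩ : ∃ t, t = b5 x u05 * b5 y u05 := ⟨_, rfl⟩
    have hx : b5 (x - t • y) u05 = 0 := by
      rw [sub_eq_add_neg, frm5.add, frm5.neg_left, frm5.smul, ht, mul_assoc,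
        k3_sq _ hperp, mul_one, add_neg_cancel]
    rw [show x = (x - t • y) + t • y by abel, M.κ_add hs]
    refine mul_mem (hQ (κ_mem_Q7 hs M hx)) ?_
    rcases k3_cases t with rfl | rfl | rfl
    · rw [zero_smul, M.κ_zero hs]; exact one_mem _
    · rwa [one_smul]
    · rw [neg_one_smul, M.κ_neg hs]; exact inv_mem hκy
  obtain ⟨l, hl, hlA⟩ := norm3_not_le hs M
  refine hlA ?_
  have hmap : (M.torus hs).map (MulAut.conj l).toMonoidHom = M.torus hs := by
    refine M.unique_in_three hs hp hA ?_ ⟨⟨?_⟩⟩ ?_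
    · rintro _ ⟨x, hx, rfl⟩
      exact (Subgroup.mem_normalizer_iff.1 (hn hl) x).1 (hA hx)
    · rintro ⟨_, u, hu, rfl⟩ ⟨_, v, hv, rfl⟩
      exact Subtype.ext (((M.torus_comm hs hu hv).map (MulAut.conj l).toMonoidHom).eq)
    · rw [Subgroup.card_map_of_injective (f := (MulAut.conj l).toMonoidHom) (MulAut.conj l).injective,
        M.card_torus hs]
  refine Subgroup.mem_normalizer_iff.2 fun x => ⟨fun hx => hmap.le ⟨x, hx, rfl⟩, fun hx => ?_⟩
  obtain ⟨z, hz, e⟩ := hmap.ge hx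
  rwa [← (MulAut.conj l).injective e]

/-- The generalized Fitting subgroup of the normaliser of the point. -/
theorem fstar_norm3 :
    Cfsg.generalizedFittingSubgroup ↥(norm3 M) = (Q7 hs M).subgroupOf (norm3 M) := by
  haveI : Fact (Nat.Prime 3) := ⟨Nat.prime_three⟩
  have hQn : ((Q7 hs M).subgroupOf (norm3 M)).Normal :=
    ⟨fun g hg n => Q7_conj hs M n.2 hg⟩
  have hQp : IsPGroup 3 ((Q7 hs M).subgroupOf (norm3 M)) :=
    (Q7_isPGroup hs M).comap_subtype
  have hle : (Q7 hs M).subgroupOf (norm3 M) ≤ Cfsg.pCore 3 ↥(norm3 M) := H51.le_pCore hQn hQp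
  have heq : Cfsg.pCore 3 ↥(norm3 M) = (Q7 hs M).subgroupOf (norm3 M) := by
    refine le_antisymm ?_ hle
    obtain ⟨R, hR⟩ : ∃ R, R = (Cfsg.pCore 3 ↥(norm3 M)).map (norm3 M).subtype := ⟨_, rfl⟩
    have hsub := core_le hs M (R := R) (hR ▸ Subgroup.map_subtype_le _)
      (hR ▸ (H51.pCore_isPGroup 3 _).map _) (fun n hn => ?_) (fun g hg => ?_)
    · intro g hg
      exact hsub (hR ▸ ⟨g, hg, rfl⟩)
    · have hN := H51.pCore_normal 3 ↥(norm3 M)
      refine Subgroup.mem_normalizer_iff.2 fun x => ?_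
      rw [hR]
      constructor
      · rintro ⟨z, hz, rfl⟩
        exact ⟨_, hN.conj_mem z hz ⟨n, hn⟩, rfl⟩
      · rintro ⟨z, hz, e⟩
        refine ⟨_, hN.conj_mem z hz ⟨n, hn⟩⁻¹, ?_⟩
        show n⁻¹ * ((z : ↥(norm3 M)) : G) * n⁻¹⁻¹ = x
        rw [show ((z : ↥(norm3 M)) : G) = n * x * n⁻¹ from e]
        group
    · exact hR ▸ ⟨⟨g, Q7_le_norm3 hs M hg⟩, hle hg, rfl⟩
  rw [← heq]
  refine H73.charP_iff_generalizedFitting.1 fun n hn => ?_
  rw [heq] at hn ⊢
  exact centralizer_Q7 hs M fun g hg => (congrArg Subtype.val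
    (Subgroup.mem_centralizer_iff.1 hn ⟨g, Q7_le_norm3 hs M hg⟩ hg)).symm

/-- The assertion at the point. -/
theorem norm3_main :
    Cfsg.IsExtraspecial 3 ↥(Cfsg.generalizedFittingSubgroup ↥(norm3 M)) ∧
      Nat.card ↥(Cfsg.generalizedFittingSubgroup ↥(norm3 M)) = 3 ^ 7 := by
  rw [fstar_norm3 hs M]
  exact ⟨H58.isExtraspecial_congr (Subgroup.subgroupOfEquivOfLe (Q7_le_norm3 hs M)).symm
    (isExtraspecial_Q7 hs M),
    (Nat.card_congr (Subgroup.subgroupOfEquivOfLe (Q7_le_norm3 hs M)).toEquiv).trans (card_Q7 hs M)⟩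

omit hs in
/-- A central subgroup of order three of a Sylow three-subgroup is conjugate to the point. -/
theorem central_form (hD : Cfsg.IsThreeTranspositionGroup D)
    (hprim : Cfsg.IsPrimitiveUnderConj D) (h22 : Cfsg.IsOfTypeM22 G D) {Z : Subgroup G}
    (hZ : Nat.card Z = 3) (P : Sylow 3 G)
    (hc : Z ≤ (Subgroup.center ↥(P : Subgroup G)).map (P : Subgroup G).subtype) :
    ∃ (_ : Sys D) (a d : G) (M : Mdl D a d), Z = Subgroup.zpowers (M.κ u05) := by
  haveI : Fact (Nat.Prime 3) := ⟨Nat.prime_three⟩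
  have hs' := exists_sys hD hprim h22
  obtain ⟨-, d₁, hd₁, c₁, hc₁, hdc, -⟩ := id h22
  obtain ⟨M⟩ := exists_mdl hs' hd₁ hc₁ hdc
  obtain ⟨g, hg⟩ := MulAction.exists_smul_eq G (M.sylow0 hs') P
  obtain ⟨x, hx, hx1⟩ := Z.bot_or_exists_ne_one.resolve_left (fun e => by
    rw [e, Subgroup.card_bot] at hZ; norm_num at hZ)
  obtain ⟨⟨_, hxP⟩, hxc, rfl⟩ := hc hx
  have hin : ∀ {q : G}, q ∈ M.P0 hs' → g * q * g⁻¹ ∈ (P : Subgroup G) := fun {q} hq => by
    rw [← hg]; exact ⟨q, hq, rfl⟩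
  obtain ⟨x₀, hx₀, rfl⟩ : ∃ x₀ ∈ M.P0 hs', g * x₀ * g⁻¹ = _ := by
    have h := hxP
    rw [← hg] at h
    obtain ⟨q, hq, e⟩ := h
    exact ⟨q, hq, e⟩
  have hcom : ∀ q ∈ M.P0 hs', Commute x₀ q := fun q hq => by
    refine (H17.commute_conj g).1 ?_
    exact (congrArg Subtype.val (Subgroup.mem_center_iff.1 hxc ⟨_, hin hq⟩)).symm
  obtain ⟨v, rfl⟩ := M.mem_of_ind_id hs' (n := x₀) fun u => by
    rw [(hcom _ (M.torus_le_P0 hs' ⟨u, rfl⟩)).eq, mul_inv_cancel_right]
  have hfix : ∀ p, U5 p v = v := fun p => by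
    obtain ⟨q, hq⟩ := M.exists_U5 hs' p
    have h := hq v
    rw [← (hcom q ⟨p, hq⟩).eq, mul_inv_cancel_right] at h
    exact (M.κ_inj hs' h).symm
  have hv := U5_fixed_dec (enc5 v) (enc5_lt v)
  rw [dec5_enc5] at hv
  have hv' := hv fun p _ => hfix p
  refine ⟨hs', _, _, M.conj hs' g, ?_⟩
  have hmem : g * M.κ v * g⁻¹ ∈ Subgroup.zpowers ((M.conj hs' g).κ u05) := by
    rw [hv', M.conj_κ hs']
    rcases k3_cases (v 1) with e | e | e <;> rw [e]
    · exact absurd (show g * M.κ v * g⁻¹ = 1 by rw [hv', e, zero_smul, M.κ_zero hs', mul_one, mul_inv_cancel]) hx1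
    · rw [one_smul]; exact Subgroup.mem_zpowers _
    · rw [neg_one_smul, M.κ_neg hs',
        show g * (M.κ u05)⁻¹ * g⁻¹ = (g * M.κ u05 * g⁻¹)⁻¹ by group]
      exact inv_mem (Subgroup.mem_zpowers _)
  have hxZ : Subgroup.zpowers (g * M.κ v * g⁻¹) = Z :=
    H24.zpowers_eq_of_card_prime hZ hx hx1
  rw [← hxZ]
  refine Subgroup.eq_of_le_of_card_ge (Subgroup.zpowers_le.2 hmem) ?_
  rw [hxZ, hZ]
  exact ((M.conj hs' g).card_point hs' (rep5_ne_zero 2)).le

end Cfsg.Agent.H72.M22Three
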